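import Mathlib
import Cfsg.Agent.Lib.Classical.SLCard
import Cfsg.Agent.Lib.Core.Basic

/-!
The transvections of `L₃(q)`, `q` even.
-/

set_option autoImplicit false
set_option linter.unusedSectionVars false

namespace CfsgLib.L3N

open Matrix

variable {F : Type*} [Field F] {x y z v f g : Fin 3 → F}

/-- Proportional vectors. -/
def Par (x y : Fin 3 → F) : Prop := ∃ c : F, x = c • y

theorem Par.refl (x : Fin 3 → F) : Par x x := ⟨1, by simp⟩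

theorem Par.symm (h : Par x y) (hx : x ≠ 0) : Par y x := by
  obtain ⟨c, rfl⟩ := h
  exact ⟨c⁻¹, by simp [left_ne_zero_of_smul hx]⟩

theorem Par.dot (h : Par x y) (h1 : f ⬝ᵥ y = 0) : f ⬝ᵥ x = 0 := by
  obtain ⟨c, rfl⟩ := h; simp [h1]

theorem dc (h : f ⬝ᵥ x = 0) : x ⬝ᵥ f = 0 := dotProduct_comm f x ▸ h

theorem par_or (h1 : f ⬝ᵥ x = 0) (h2 : f ⬝ᵥ y = 0) (h3 : g ⬝ᵥ x = 0) (h4 : g ⬝ᵥ y = 0) (hy : y ≠ 0)
    (hg : g ≠ 0) : Par x y ∨ Par f g := by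
  have k : ∀ {x y : Fin 3 → F}, y ≠ 0 → crossProduct y x = 0 → Par x y := fun hy h => by
    by_contra h1
    exact crossProduct_ne_zero_iff_linearIndependent.2 ((LinearIndependent.pair_iff' hy).2
      fun a e => h1 ⟨a, e.symm⟩) h
  exact (Configuration.ofField.crossProduct_eq_zero_of_dotProduct_eq_zero h4 h2 h3 h1).symm.imp
    (k hy) (k hg)

theorem exists_dual (h : ¬ Par x y) : ∃ f : Fin 3 → F, f ⬝ᵥ x = 1 ∧ f ⬝ᵥ y = 0 := by
  obtain ⟨φ, h1, h2⟩ := Submodule.exists_dual_map_eq_bot_of_notMem (p := Submodule.span F {y}) (x := x)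
    (fun h1 => h (let ⟨c, e⟩ := Submodule.mem_span_singleton.1 h1; ⟨c, e.symm⟩)) inferInstance
  obtain ⟨f, rfl⟩ := (dotProductEquiv F (Fin 3)).surjective φ
  have h3 : f ⬝ᵥ y = 0 := (Submodule.eq_bot_iff _).1 h2 _
    ⟨y, Submodule.mem_span_singleton_self y, rfl⟩
  exact ⟨(f ⬝ᵥ x)⁻¹ • f, by rw [smul_dotProduct]; exact inv_mul_cancel₀ h1, by simp [h3]⟩

theorem exists_orth (x y : Fin 3 → F) : ∃ f : Fin 3 → F, f ≠ 0 ∧ f ⬝ᵥ x = 0 ∧ f ⬝ᵥ y = 0 := by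
  obtain ⟨f, h1, h2⟩ := (Submodule.ne_bot_iff _).1 (LinearMap.ker_ne_bot_of_finrank_lt
    (f := (dotProductEquiv F (Fin 3) x).prod (dotProductEquiv F (Fin 3) y)) (by simp))
  exact ⟨f, h2, dc (congrArg Prod.fst h1), dc (congrArg Prod.snd h1)⟩

theorem exists_not_par (x f : Fin 3 → F) : ∃ g : Fin 3 → F, g ⬝ᵥ x = 0 ∧ ¬ Par g f := by
  by_cases hf : f = 0
  · obtain ⟨g, h1, h2, -⟩ := exists_orth x x
    exact ⟨g, h2, fun ⟨c, e⟩ => h1 (by simpa [hf] using e)⟩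
  obtain ⟨y, hy, -⟩ := exists_dual (x := f) (y := 0) fun ⟨c, e⟩ => hf (by simpa using e)
  obtain ⟨g, h1, h2, h3⟩ := exists_orth x y
  exact ⟨g, h2, fun ⟨c, e⟩ => h1 (by
    rw [e, show c = 0 by simpa [e, dotProduct_comm f, hy] using h3, zero_smul])⟩

theorem span_two (h1 : f ⬝ᵥ x = 0) (h2 : g ⬝ᵥ x = 0) (h3 : v ⬝ᵥ x = 0) (hx : x ≠ 0) (hg : g ≠ 0)
    (h : ¬ Par f g) : ∃ a b : F, v = a • f + b • g := by
  obtain ⟨y, h4, h5⟩ := exists_dual h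
  obtain ⟨c, e⟩ | ⟨c, e⟩ := par_or (f := v - (y ⬝ᵥ v) • f) (g := g) (x := y) (y := x)
    (by simp [dotProduct_comm f, h4, dotProduct_comm v]) (by simp [h1, h3]) (dc h5) h2 hx hg
  · simp [e, dc h1] at h4
  · exact ⟨y ⬝ᵥ v, c, by rw [← e]; abel⟩

theorem vv_eq (hx : x ≠ 0) (hf : f ≠ 0) (h : vecMulVec x f = vecMulVec y g) :
    ∃ c : F, x = c • y ∧ g = c • f := by
  obtain ⟨j, hj⟩ := Function.ne_iff.1 hf
  have k : ∀ i j, x i * f j = y i * g j := fun i j => congrFun₂ h i j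
  have h1 : x = (g j / f j) • y := funext fun i => by
    simp only [Pi.smul_apply, smul_eq_mul]; field_simp [show f j ≠ 0 from hj]; rw [k, mul_comm]
  obtain ⟨i, hi⟩ := Function.ne_iff.1 (show y ≠ 0 by rintro rfl; simp [hx] at h1)
  refine ⟨_, h1, funext fun l => mul_left_cancel₀ hi ?_⟩
  rw [← k, congrFun h1 i]; simp; ring

theorem rank_one {A : Matrix (Fin 3) (Fin 3) F} (h : A * A = 0) :
    ∃ x f, f ⬝ᵥ x = 0 ∧ A = vecMulVec x f := by
  by_cases h0 : A = 0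
  · exact ⟨0, 0, by simp, by simp [h0]⟩
  obtain ⟨x, f, rfl⟩ : ∃ x f, A = vecMulVec x f := by
    obtain ⟨i, hi⟩ := Function.ne_iff.1 h0
    obtain ⟨j, hj⟩ := Function.ne_iff.1 hi
    have k : ∀ i j, A i ⬝ᵥ Aᵀ j = 0 := fun i j => congrFun₂ h i j
    by_cases h1 : ∀ l, Par (Aᵀ l) (Aᵀ j)
    · choose c hc using h1
      exact ⟨Aᵀ j, c, Matrix.ext fun a b => (congrFun (hc b) a).trans (mul_comm _ _)⟩
    obtain ⟨l, hl⟩ := not_forall.1 h1
    choose c hc using fun m => (par_or (k m l) (k m j) (k i l) (k i j)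
      (fun e => hj (congrFun e i)) hi).resolve_left hl
    exact ⟨c, A i, Matrix.ext fun a b => congrFun (hc a) b⟩
  refine ⟨x, f, ?_, rfl⟩
  rw [vecMulVec_mul_vecMulVec, vecMulVec_smul] at h
  exact (smul_eq_zero.1 h).resolve_right h0

variable {G : Type*} [Group G] [Fintype F]

/-- The transvections of a subgroup `N ≅ L₃(F)`. -/
structure TS (τ : (Fin 3 → F) → (Fin 3 → F) → G) (N : Subgroup G) : Prop where
  mem : ∀ x f, τ x f ∈ N
  addl : ∀ {x y f}, f ⬝ᵥ x = 0 → f ⬝ᵥ y = 0 → τ (x + y) f = τ x f * τ y f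
  addr : ∀ {x f g}, f ⬝ᵥ x = 0 → g ⬝ᵥ x = 0 → τ x (f + g) = τ x f * τ x g
  ext : ∀ {x f y g}, f ⬝ᵥ x = 0 → g ⬝ᵥ y = 0 → (τ x f = τ y g ↔ vecMulVec x f = vecMulVec y g)
  conj : ∀ {x f y g}, f ⬝ᵥ x = 0 → g ⬝ᵥ y = 0 →
    τ x f * τ y g * (τ x f)⁻¹ = τ (y + (f ⬝ᵥ y) • x) (g + (g ⬝ᵥ x) • f)
  act : ∀ n ∈ N, ∃ M M' : (Fin 3 → F) →ₗ[F] (Fin 3 → F), ∀ x f, f ⬝ᵥ x = 0 →
    M' f ⬝ᵥ M x = 0 ∧ n * τ x f * n⁻¹ = τ (M x) (M' f)
  inv : ∀ e ∈ N, e * e = 1 → ∃ x f, f ⬝ᵥ x = 0 ∧ e = τ x f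
  simple : IsSimpleGroup N
  card : Nat.gcd 3 (Fintype.card F - 1) * Nat.card N =
    Fintype.card F ^ 3 * ((Fintype.card F ^ 2 - 1) * (Fintype.card F ^ 3 - 1))

variable {τ : (Fin 3 → F) → (Fin 3 → F) → G} {N : Subgroup G}

theorem TS.flip (T : TS τ N) : TS (flip τ) N where
  mem _ _ := T.mem _ _
  addl h h' := T.addr (dc h) (dc h')
  addr h h' := T.addl (dc h) (dc h')
  ext h h' := (T.ext (dc h) (dc h')).trans (by
    rw [← transpose_inj, transpose_vecMulVec, transpose_vecMulVec])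
  conj {x f y g} h h' := (T.conj (dc h) (dc h')).trans (by
    rw [dotProduct_comm x, dotProduct_comm y]; rfl)
  act n hn := let ⟨M, M', h⟩ := T.act n hn; ⟨M', M, fun x f e => ⟨dc (h f x (dc e)).1, (h f x (dc e)).2⟩⟩
  inv e he h := let ⟨x, f, h1, h2⟩ := T.inv e he h; ⟨f, x, dc h1, h2⟩
  simple := T.simple
  card := T.card

theorem exists_TS [CharP F 2] (e : N ≃* ProjectiveSpecialLinearGroup (Fin 3) F) :
    ∃ τ : (Fin 3 → F) → (Fin 3 → F) → G, TS τ N := by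
  classical
  let ψ : Matrix.SpecialLinearGroup (Fin 3) F →* G :=
    (N.subtype.comp e.symm.toMonoidHom).comp (QuotientGroup.mk' _)
  obtain ⟨m, hm⟩ : ∃ m : Matrix.SpecialLinearGroup (Fin 3) F →* Matrix (Fin 3) (Fin 3) F,
    ∀ g, m g = g.1 := ⟨Matrix.SpecialLinearGroup.coeMonoidHom, fun _ => rfl⟩
  have mi : ∀ {g k}, m g = m k → g = k := fun h => Subtype.ext (by rwa [hm, hm] at h)
  have h1 : ∀ g, ψ g ∈ N := fun g => Subtype.prop _
  have h2 : ∀ n ∈ N, ∃ g, ψ g = n := fun n hn =>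
    let ⟨g, hg⟩ := QuotientGroup.mk'_surjective _ (e ⟨n, hn⟩)
    ⟨g, by simp [ψ, ← QuotientGroup.mk'_apply, hg]⟩
  have h3 : ∀ g, ψ g = 1 → g ^ 3 = 1 ∧ ∀ k, Commute g k := fun g hg => by
    have : g ∈ Subgroup.center _ := by simpa [ψ] using hg
    refine ⟨?_, fun k => (Subgroup.mem_center_iff.1 this k).symm⟩
    obtain ⟨r, h, h'⟩ := Matrix.SpecialLinearGroup.mem_center_iff.1 this
    exact mi (by rw [map_pow, hm, ← h', ← map_pow, show r ^ 3 = 1 from h, map_one, map_one])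
  obtain ⟨t, ht⟩ : ∃ t : (Fin 3 → F) → (Fin 3 → F) → Matrix.SpecialLinearGroup (Fin 3) F,
      ∀ {x f}, f ⬝ᵥ x = 0 → m (t x f) = 1 + vecMulVec x f :=
    ⟨fun x f => if h : f ⬝ᵥ x = 0 then ⟨1 + vecMulVec x f, by
      rw [vecMulVec_eq Unit, det_one_add_replicateCol_mul_replicateRow, h, add_zero]⟩ else 1,
      fun h => (hm _).trans (congrArg Subtype.val (dif_pos h))⟩
  have aa : ∀ A : Matrix (Fin 3) (Fin 3) F, A + A = 0 := fun A => by
    rw [← two_smul F, CharTwo.two_eq_zero, zero_smul]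
  have t2 : ∀ {x f : Fin 3 → F}, f ⬝ᵥ x = 0 → t x f * t x f = 1 := fun h => mi (by
    simp [ht h, add_mul, mul_add, vecMulVec_mul_vecMulVec, h, add_assoc, aa])
  have ac : ∀ (g : Matrix.SpecialLinearGroup (Fin 3) F) {x f : Fin 3 → F}, f ⬝ᵥ x = 0 →
      (f ᵥ* m g⁻¹) ⬝ᵥ (m g *ᵥ x) = 0 ∧ ψ g * ψ (t x f) * (ψ g)⁻¹ = ψ (t (m g *ᵥ x) (f ᵥ* m g⁻¹)) :=
    fun g x f h => by
    have h' : (f ᵥ* m g⁻¹) ⬝ᵥ (m g *ᵥ x) = 0 := by
      rw [dotProduct_mulVec, vecMul_vecMul, ← map_mul]; simpa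
    refine ⟨h', ?_⟩
    rw [← map_inv, ← map_mul, ← map_mul]
    refine congrArg ψ (mi ?_)
    rw [map_mul, map_mul, ht h, ht h', mul_add, add_mul, mul_vecMulVec, vecMulVec_mul, mul_one,
      ← map_mul, mul_inv_cancel, map_one]
  refine ⟨fun x f => ψ (t x f), fun x f => h1 _, fun {x y f} h h' => ?_,
    fun {x f g} h h' => ?_, fun {x f y g} h h' => ?_, fun {x f y g} h h' => ?_, fun n hn => ?_,
    fun n hn h => ?_, ?_, ?_⟩
  · rw [← map_mul]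
    exact congrArg ψ (mi (by
      rw [map_mul, ht h, ht h', ht (by simp [h, h'])]
      simp [add_mul, mul_add, vecMulVec_mul_vecMulVec, h', add_vecMulVec, add_assoc]))
  · rw [← map_mul]
    exact congrArg ψ (mi (by
      rw [map_mul, ht h, ht h', ht (by simp [h, h'])]
      simp [add_mul, mul_add, vecMulVec_mul_vecMulVec, h, vecMulVec_add, add_assoc]))
  · refine ⟨fun e => ?_, fun e => congrArg ψ (mi (by rw [ht h, ht h', e]))⟩
    obtain ⟨h4, h5⟩ := h3 (t x f * t y g) (by rw [map_mul, e, ← map_mul, t2 h', map_one])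
    have h6 : t x f * t y g * (t x f * t y g) = 1 := by
      nth_rw 1 [← mul_assoc, (h5 _).eq]
      rw [← mul_assoc, t2 h, one_mul, t2 h']
    rw [pow_succ, pow_two, h6, one_mul, mul_eq_one_iff_eq_inv, inv_eq_of_mul_eq_one_right (t2 h')] at h4
    simpa [ht h, ht h'] using congrArg m h4
  · rw [(ac _ h').2, inv_eq_of_mul_eq_one_right (t2 h)]
    simp [ht h, add_mulVec, vecMulVec_mulVec, vecMul_add, vecMul_vecMulVec]
  · obtain ⟨g, rfl⟩ := h2 n hn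
    exact ⟨mulVecLin (m g), vecMulLinear (m g⁻¹), fun x f h => ac g h⟩
  · obtain ⟨g, rfl⟩ := h2 n hn
    have h4 := (h3 (g * g) (by rwa [map_mul])).1
    obtain ⟨x, f, h5, h6⟩ := rank_one (A := m (g ^ 3) + 1) (by
      rw [add_mul, mul_add, mul_add, ← map_mul, ← (Commute.refl g).mul_pow, h4]
      simp [add_assoc, ← add_assoc (m g ^ 3), aa])
    refine ⟨x, f, h5, ?_⟩
    rw [show t x f = g ^ 3 from mi (by rw [ht h5, ← h6, add_comm, add_assoc, aa, add_zero]),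
      map_pow, pow_succ, pow_two, h, one_mul]
  · have := Classical.psl_isSimpleGroup (ι := Fin 3) (F := F) (by simp)
    exact e.isSimpleGroup
  · rw [Nat.card_congr e.toEquiv, ← Classical.sl3_card, ← Classical.psl_card_mul, Fintype.card_fin]

end CfsgLib.L3N
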