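import Mathlib
import Cfsg.Agent.Lib.L3N.TS

/-!
The elementary abelian subgroups of order `q²` of `L₃(q)`, `q` even.
-/

set_option autoImplicit false
set_option linter.unusedSectionVars false

namespace CfsgLib.L3N

open Matrix hiding mul_inv_rev

variable {G : Type*} [Group G] {N E W U : Subgroup G} {q : ℕ} {e n s t w : G}

open scoped Pointwise in
/-- Conjugation of subgroups. -/
scoped instance cjAct : MulAction G (Subgroup G) := MulAction.compHom _ (MulAut.conj : G →* MulAut G)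

theorem mem_cj : e ∈ s • E ↔ s⁻¹ * e * s ∈ E :=
  Subgroup.mem_pointwise_smul_iff_inv_smul_mem.trans (by simp)

theorem cj_mem : s * e * s⁻¹ ∈ s • E ↔ e ∈ E := by simp [mem_cj, mul_assoc]

theorem card_cj : Nat.card (s • E :) = Nat.card E :=
  Nat.card_congr (Subgroup.equivSMul (MulAut.conj s) E).toEquiv.symm

theorem cj_le (h : ∀ e ∈ E, s * e * s⁻¹ ∈ W) : s • E ≤ W := fun e he => by
  simpa [mul_assoc] using h _ (mem_cj.1 he)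

theorem cj_mono (h : E ≤ W) : s • E ≤ s • W := fun _ he => mem_cj.2 (h (mem_cj.1 he))

theorem cj_inf : s • (E ⊓ W) = s • E ⊓ s • W := Subgroup.ext fun _ => by simp [mem_cj]

theorem cj_eq [Finite G] (h : ∀ e ∈ E, s * e * s⁻¹ ∈ E) : s • E = E :=
  Subgroup.eq_of_le_of_card_ge (cj_le h) card_cj.ge

theorem cj_self (h : s ∈ E) : s • E = E :=
  Subgroup.ext fun _ => mem_cj.trans (by rw [mul_mem_cancel_right h, mul_mem_cancel_left (inv_mem h)])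

theorem mem_of_cj (h : s • E = E) (he : e ∈ E) : s * e * s⁻¹ ∈ E := h ▸ cj_mem.2 he

theorem inv_cj (h : s • E = W) : s⁻¹ • W = E := by rw [← h, inv_smul_smul]

theorem le_norm (h : ∀ w ∈ W, w • E = E) : W ≤ Subgroup.normalizer (E : Set G) := fun w hw =>
  Subgroup.mem_normalizer_iff.2 fun _ => cj_mem.symm.trans (by rw [h w hw])

variable (q N E) in
/-- The elementary abelian subgroups of order `q²`. -/
structure Vx : Prop where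
  le : E ≤ N
  sq : ∀ e ∈ E, e * e = 1
  card : Nat.card E = q ^ 2

variable (E W) in
/-- Incidence. -/
def Adj : Prop := E ≠ W ∧ ∃ e, e ≠ 1 ∧ e ∈ E ∧ e ∈ W

variable (N E U) in
/-- Conjugacy under `N`. -/
def Same : Prop := ∃ n ∈ N, n • E = U

variable (q N E) in
/-- The subgroup generated by the neighbours. -/
def HE : Subgroup G := Subgroup.closure {w | ∃ W, Vx N W q ∧ Adj E W ∧ w ∈ W}

theorem Adj.symm (h : Adj E W) : Adj W E := ⟨h.1.symm, let ⟨e, h1, h2, h3⟩ := h.2; ⟨e, h1, h3, h2⟩⟩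

theorem Vx.inv (h : Vx N E q) (he : e ∈ E) : e⁻¹ = e := inv_eq_of_mul_eq_one_right (h.sq e he)

theorem Vx.comm (h : Vx N E q) (he : e ∈ E) (ht : t ∈ E) : Commute e t := by
  rw [Commute, SemiconjBy, ← h.inv (mul_mem he ht), mul_inv_rev, h.inv he, h.inv ht]

variable {F : Type*} [Field F] [Fintype F] [CharP F 2] {x y z v f g : Fin 3 → F}
  {τ : (Fin 3 → F) → (Fin 3 → F) → G}

theorem add_self (x : Fin 3 → F) : x + x = 0 := by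
  rw [← two_smul F, CharTwo.two_eq_zero, zero_smul]

namespace TS

variable (T : TS τ N)
include T

theorem zero_right (x : Fin 3 → F) : τ x 0 = 1 :=
  by simpa using T.addr (x := x) (f := 0) (g := 0) (by simp) (by simp)

theorem zero_left (f : Fin 3 → F) : τ 0 f = 1 := T.flip.zero_right f

theorem sq (h : f ⬝ᵥ x = 0) : τ x f * τ x f = 1 := by rw [← T.addr h h, add_self, T.zero_right]

theorem eq_one (h : f ⬝ᵥ x = 0) : τ x f = 1 ↔ x = 0 ∨ f = 0 := by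
  rw [← T.zero_right 0, T.ext h (by simp)]; simp

theorem smul (h : f ⬝ᵥ x = 0) (c : F) : τ (c • x) f = τ x (c • f) :=
  (T.ext (by simp [h]) (by simp [h])).2 (by simp [smul_vecMulVec, vecMulVec_smul])

/-- The elations with given centre. -/
def pt (x : Fin 3 → F) : Subgroup G where
  carrier := {e | ∃ f, f ⬝ᵥ x = 0 ∧ e = τ x f}
  mul_mem' := by
    rintro _ _ ⟨f, h, rfl⟩ ⟨g, h', rfl⟩
    exact ⟨f + g, by simp [h, h'], (T.addr h h').symm⟩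
  one_mem' := ⟨0, by simp, (T.zero_right x).symm⟩
  inv_mem' := by
    rintro _ ⟨f, h, rfl⟩
    exact ⟨f, h, inv_eq_of_mul_eq_one_right (T.sq h)⟩

theorem mem_pt (h : f ⬝ᵥ x = 0) : τ x f ∈ T.pt x := ⟨f, h, rfl⟩

theorem mem_ln (h : f ⬝ᵥ x = 0) : τ x f ∈ T.flip.pt f := ⟨x, dc h, rfl⟩

theorem mem_of_par (h : f ⬝ᵥ y = 0) (h1 : Par x y) : τ x f ∈ T.pt y := by
  obtain ⟨c, rfl⟩ := h1
  exact T.smul h c ▸ T.mem_pt (by simp [h])

theorem par_of_mem (h : f ⬝ᵥ x = 0) (h0 : τ x f ≠ 1) (h1 : τ x f ∈ T.pt y) : Par x y := by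
  obtain ⟨g, h2, h3⟩ := h1
  obtain ⟨h4, h5⟩ := not_or.1 (mt (T.eq_one h).2 h0)
  exact (vv_eq h4 h5 ((T.ext h h2).1 h3)).imp fun _ => And.left

theorem ne_one (h : f ⬝ᵥ x = 0) (hx : x ≠ 0) (hf : f ≠ 0) : τ x f ≠ 1 := by simp [T.eq_one h, hx, hf]

theorem pt_eq (h : Par x y) (hx : x ≠ 0) : T.pt x = T.pt y := by
  have k : ∀ {x y}, x ≠ 0 → Par x y → T.pt x ≤ T.pt y := fun hx h _ ⟨f, h1, e⟩ =>
    e ▸ T.mem_of_par ((h.symm hx).dot h1) h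
  exact le_antisymm (k hx h) (k (by rintro rfl; obtain ⟨c, e⟩ := h; simp [hx] at e) (h.symm hx))

theorem par_of_eq (h : T.pt x = T.pt y) (hx : x ≠ 0) : Par x y :=
  let ⟨_, h1, h2, _⟩ := exists_orth x x
  T.par_of_mem h2 (T.ne_one h2 hx h1) (h ▸ T.mem_pt h2)

theorem pt_ne (hx : x ≠ 0) : T.pt x ≠ T.flip.pt f := fun e => by
  obtain ⟨g, h1, h2⟩ := exists_not_par x f
  exact h2 (T.flip.par_of_mem (dc h1) (T.ne_one h1 hx fun e => h2 ⟨0, by simp [e]⟩) (e ▸ T.mem_pt h1))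

theorem vx_pt (hx : x ≠ 0) : Vx N (T.pt x) (Fintype.card F) := by
  refine ⟨fun _ ⟨_, _, e⟩ => e ▸ T.mem _ _, fun _ ⟨_, h, e⟩ => e ▸ T.sq h, ?_⟩
  have h1 := Module.Dual.finrank_ker_add_one_of_ne_zero
    ((dotProductEquiv F (Fin 3)).map_ne_zero_iff.2 hx)
  rw [← Nat.card_congr (Equiv.ofBijective (fun f : LinearMap.ker (dotProductEquiv F (Fin 3) x) =>
    (⟨τ x f, T.mem_pt (dc f.2)⟩ : T.pt x)) ⟨fun f g e => ?_, fun ⟨_, f, h, e⟩ =>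
      ⟨⟨f, dc h⟩, Subtype.ext e.symm⟩⟩), Module.natCard_eq_pow_finrank (K := F),
    Nat.card_eq_fintype_card, show Module.finrank F _ = 2 by simpa using h1]
  have := (T.ext (dc f.2) (dc g.2)).1 (congrArg Subtype.val e)
  rw [← sub_eq_zero, ← vecMulVec_sub, vecMulVec_eq_zero, sub_eq_zero] at this
  exact Subtype.ext (this.resolve_left hx)

theorem nz (h : f ⬝ᵥ x = 0) (h1 : τ x f ≠ 1) : x ≠ 0 ∧ f ≠ 0 := not_or.1 (mt (T.eq_one h).2 h1)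

theorem dot_of_comm (h : f ⬝ᵥ x = 0) (h' : g ⬝ᵥ y = 0) (h0 : τ x f ≠ 1) (h1 : τ y g ≠ 1)
    (hc : Commute (τ x f) (τ y g)) : f ⬝ᵥ y = 0 := by
  by_contra h2
  have h3 := T.conj h h'
  rw [hc.eq, mul_inv_cancel_right] at h3
  obtain ⟨c, e⟩ := T.par_of_mem (y := y) (by simp [h, h', mul_comm, CharTwo.add_self_eq_zero])
    (h3 ▸ h1) (h3 ▸ T.mem_pt h')
  have h5 := congrArg (f ⬝ᵥ ·) e
  simp [h, h2] at h5
  rw [h5, one_smul, add_eq_left, smul_eq_zero_iff_right h2] at e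
  exact (T.nz h h0).1 e

theorem par_of_comm (h : f ⬝ᵥ x = 0) (h' : g ⬝ᵥ y = 0) (h0 : τ x f ≠ 1) (h1 : τ y g ≠ 1)
    (hc : Commute (τ x f) (τ y g)) : Par x y ∨ Par f g :=
  par_or h (T.dot_of_comm h h' h0 h1 hc) (T.dot_of_comm h' h h1 h0 hc.symm) h' (T.nz h' h1).1
    (T.nz h' h1).2

variable [Finite G]

theorem cls (hE : Vx N E (Fintype.card F)) :
    (∃ x, x ≠ 0 ∧ E = T.pt x) ∨ ∃ f, f ≠ 0 ∧ E = T.flip.pt f := by
  have k := fun e (he : e ∈ E) => T.inv e (hE.le he) (hE.sq e he)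
  obtain ⟨e, he, h0⟩ := E.bot_or_exists_ne_one.resolve_left fun h => by
    have := hE.card
    rw [h, Subgroup.card_bot] at this
    nlinarith [Fintype.one_lt_card (α := F)]
  obtain ⟨x, f, h, rfl⟩ := k e he
  by_cases h1 : E ≤ T.pt x
  · exact .inl ⟨x, (T.nz h h0).1, Subgroup.eq_of_le_of_card_ge h1
      ((T.vx_pt (T.nz h h0).1).card.trans hE.card.symm).le⟩
  obtain ⟨e, he', h2⟩ := SetLike.not_le_iff_exists.1 h1
  obtain ⟨y, g, h', rfl⟩ := k e he'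
  have h3 : τ y g ≠ 1 := fun e => h2 (e ▸ one_mem _)
  have c := fun {x f y g} h h' h0 h1 (a : τ x f ∈ E) (b : τ y g ∈ E) =>
    T.par_of_comm h h' h0 h1 (hE.comm a b)
  have h4 : ¬ Par y x := fun e => h2 (T.mem_of_par ((e.symm (T.nz h' h3).1).dot h') e)
  refine .inr ⟨f, (T.nz h h0).2, Subgroup.eq_of_le_of_card_ge (fun e he'' => ?_)
    ((T.flip.vx_pt (T.nz h h0).2).card.trans hE.card.symm).le⟩
  obtain ⟨z, v, h'', rfl⟩ := k e he''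
  by_cases h5 : τ z v = 1
  · exact h5 ▸ one_mem _
  have h6 : Par v f := by
    obtain ⟨c1, e1⟩ := (c h' h h3 h0 he' he).resolve_left h4
    obtain ⟨c2, e2⟩ | h7 := c h'' h h5 h0 he'' he
    · obtain ⟨c3, e3⟩ | ⟨c3, e3⟩ := c h' h'' h3 h5 he' he''
      · exact absurd ⟨c3 * c2, by rw [e3, e2, smul_smul]⟩ h4
      · obtain ⟨c4, e4⟩ := Par.symm ⟨c3, e3⟩ (T.nz h' h3).2
        exact ⟨c4 * c1, by rw [e4, e1, smul_smul]⟩
    · exact h7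
  exact T.flip.mem_of_par ((h6.symm (T.nz h'' h5).2).dot (dc h'')) h6

theorem wlog (hE : Vx N E (Fintype.card F)) :
    ∃ (τ : (Fin 3 → F) → (Fin 3 → F) → G) (T : TS τ N) (x : Fin 3 → F), x ≠ 0 ∧ E = T.pt x :=
  (T.cls hE).elim (fun h => ⟨_, T, h⟩) fun h => ⟨_, T.flip, h⟩

theorem not_adj (hx : x ≠ 0) (hy : y ≠ 0) : ¬ Adj (T.pt x) (T.pt y) := by
  rintro ⟨h1, _, h2, ⟨f, h, rfl⟩, h3⟩
  exact h1 (T.pt_eq (T.par_of_mem h h2 h3) hx)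

theorem adj_iff (hx : x ≠ 0) (hf : f ≠ 0) : Adj (T.pt x) (T.flip.pt f) ↔ f ⬝ᵥ x = 0 := by
  refine ⟨?_, fun h => ⟨T.pt_ne hx, _, T.ne_one h hx hf, T.mem_pt h, T.mem_ln h⟩⟩
  rintro ⟨-, _, h2, ⟨g, h, rfl⟩, h3⟩
  exact dc (((T.flip.par_of_mem (dc h) h2 h3).symm (T.nz h h2).2).dot (dc h))

theorem adj_pt (hx : x ≠ 0) (hW : Vx N W (Fintype.card F)) (h : Adj (T.pt x) W) :
    ∃ f, f ≠ 0 ∧ f ⬝ᵥ x = 0 ∧ W = T.flip.pt f := by
  obtain ⟨y, hy, rfl⟩ | ⟨f, hf, rfl⟩ := T.cls hW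
  · exact absurd h (T.not_adj hx hy)
  · exact ⟨f, hf, (T.adj_iff hx hf).1 h, rfl⟩

theorem adj_ln (hf : f ≠ 0) (hW : Vx N W (Fintype.card F)) (h : Adj W (T.flip.pt f)) :
    ∃ x, x ≠ 0 ∧ f ⬝ᵥ x = 0 ∧ W = T.pt x :=
  let ⟨x, h1, h2, h3⟩ := T.flip.adj_pt hf hW h.symm; ⟨x, h1, dc h2, h3⟩

theorem cj_pt (hx : x ≠ 0) (h : ∀ f, f ⬝ᵥ x = 0 → ∃ g, g ⬝ᵥ y = 0 ∧ n * τ x f * n⁻¹ = τ y g) :
    y ≠ 0 ∧ n • T.pt x = T.pt y := by
  have hy : y ≠ 0 := by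
    rintro rfl
    obtain ⟨f, h1, h2, -⟩ := exists_orth x x
    obtain ⟨g, -, h3⟩ := h f h2
    rw [T.zero_left, conj_eq_one_iff] at h3
    exact T.ne_one h2 hx h1 h3
  refine ⟨hy, Subgroup.eq_of_le_of_card_ge (cj_le ?_)
    (by rw [card_cj, (T.vx_pt hx).card, (T.vx_pt hy).card])⟩
  rintro _ ⟨f, h1, rfl⟩
  obtain ⟨g, h2, h3⟩ := h f h1
  exact h3 ▸ T.mem_pt h2

theorem tau_pt (h : g ⬝ᵥ v = 0) (hx : x ≠ 0) :
    x + (g ⬝ᵥ x) • v ≠ 0 ∧ τ v g • T.pt x = T.pt (x + (g ⬝ᵥ x) • v) :=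
  T.cj_pt hx fun f hf => ⟨_, by simp [h, hf, mul_comm, CharTwo.add_self_eq_zero], T.conj h hf⟩

theorem tau_ln (h : g ⬝ᵥ v = 0) (hf : f ≠ 0) :
    τ v g • T.flip.pt f = T.flip.pt (f + (f ⬝ᵥ v) • g) :=
  dotProduct_comm v f ▸ (T.flip.tau_pt (dc h) hf).2

theorem same_pt (hx : x ≠ 0) (h : Same N (T.pt x) U) : ∃ y, y ≠ 0 ∧ U = T.pt y := by
  obtain ⟨n, hn, rfl⟩ := h
  obtain ⟨M, M', h⟩ := T.act n hn
  exact ⟨_, T.cj_pt hx fun f hf => ⟨_, h x f hf⟩⟩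

theorem same_of (hx : x ≠ 0) (hy : y ≠ 0) : Same N (T.pt x) (T.pt y) := by
  by_cases h : Par x y
  · exact ⟨1, one_mem _, (one_smul _ _).trans (T.pt_eq h hx)⟩
  obtain ⟨f, h1, h2⟩ := exists_dual h
  obtain ⟨g, h3, h4⟩ := exists_dual (mt (·.symm hy) h)
  refine ⟨τ (x + y) (f + g), T.mem _ _, (T.tau_pt (by simp [*, CharTwo.add_self_eq_zero]) hx).2.trans ?_⟩
  simp [h1, h4, ← add_assoc, add_self]

theorem nsame_ln (hx : x ≠ 0) (hU : Vx N U (Fintype.card F)) (h : ¬ Same N (T.pt x) U) :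
    ∃ f, f ≠ 0 ∧ U = T.flip.pt f :=
  (T.cls hU).resolve_left fun ⟨_, hy, e⟩ => h (e ▸ T.same_of hx hy)

theorem mem_HE (hy : y ≠ 0) (h : f ⬝ᵥ v = 0) (h' : f ⬝ᵥ y = 0) :
    τ v f ∈ HE N (T.pt y) (Fintype.card F) := by
  by_cases hf : f = 0
  · rw [hf, T.zero_right]; exact one_mem _
  exact Subgroup.subset_closure ⟨_, T.flip.vx_pt hf, (T.adj_iff hy hf).2 h', T.mem_ln h⟩

theorem torus (hy : y ≠ 0) (hg : g ≠ 0) (h1 : g ⬝ᵥ y = 0) (h2 : g ⬝ᵥ v = 0) (h3 : ¬ Par v y) {μ : F}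
    (hμ : μ ≠ 0) : ∃ h ∈ HE N (T.pt y) (Fintype.card F), (∀ a b c : F,
      h * τ (a • v + b • y) (c • g) * h⁻¹ = τ ((a * μ) • v + b • y) ((c * μ) • g)) ∧
        ∀ a b : F, a • v + b • y ≠ 0 → h • T.pt (a • v + b • y) = T.pt ((a * μ) • v + b • y) := by
  obtain ⟨w, h4, h5⟩ := exists_dual h3
  obtain ⟨z, h6, h7⟩ := exists_dual (x := g) (y := w) fun e => by
    obtain ⟨c, e⟩ := e.symm hg; simp [e, h2] at h4
  replace h6 := dotProduct_comm z g ▸ h6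
  replace h7 := dc h7
  have a1 : ∀ c : F, (c • g) ⬝ᵥ v = 0 := by simp [h2]
  have a2 : ∀ c : F, (c • w) ⬝ᵥ z = 0 := by simp [h7]
  have m1 := fun c : F => T.mem_HE hy (a1 c) (by simp [h1])
  have m2 := fun c : F => T.mem_HE hy (a2 c) (by simp [h5])
  have two : (2 : F) = 0 := CharTwo.two_eq_zero
  have c : ∀ {x f y g y' g'}, f ⬝ᵥ x = 0 → g ⬝ᵥ y = 0 → y + (f ⬝ᵥ y) • x = y' → g + (g ⬝ᵥ x) • f = g' →
      g' ⬝ᵥ y' = 0 ∧ τ x f * τ y g * (τ x f)⁻¹ = τ y' g' := by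
    rintro x f y g _ _ h h' rfl rfl
    exact ⟨by simp [h, h', mul_comm, CharTwo.add_self_eq_zero], T.conj h h'⟩
  have k : ∀ {a b x f}, f ⬝ᵥ x = 0 → g ⬝ᵥ x = 0 → w ⬝ᵥ x = a → b = τ z (((1 + μ) / μ) • w) * τ v ((1 : F) • g) *
      τ z ((μ + 1) • w) * τ v (μ⁻¹ • g) → b * τ x f * b⁻¹ = τ (x + ((μ + 1) * a) • v)
        (f + ((μ⁻¹ + 1) * (f ⬝ᵥ v)) • w + ((μ + 1) * (f ⬝ᵥ z)) • g) := fun {a b x f} e1 e2 e3 e4 => by
    obtain ⟨d1, s1⟩ := c (y' := x) (g' := f + (f ⬝ᵥ v * μ⁻¹) • g) (a1 μ⁻¹) e1 (by simp [e2])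
      (by rw [smul_smul])
    obtain ⟨d2, s2⟩ := c (y' := x + ((μ + 1) * a) • z)
      (g' := f + (f ⬝ᵥ v * μ⁻¹) • g + ((f ⬝ᵥ z + f ⬝ᵥ v * μ⁻¹) * (μ + 1)) • w) (a2 (μ + 1)) d1
      (by simp [e3]) (by simp [h6, smul_smul])
    obtain ⟨d3, s3⟩ := c (y' := x + ((μ + 1) * a) • z + ((μ + 1) * a) • v)
      (g' := f + (f ⬝ᵥ z * (μ + 1)) • g + ((f ⬝ᵥ z + f ⬝ᵥ v * μ⁻¹) * (μ + 1)) • w) (a1 1) d2
      (by simp [e2, h6]) (by simp [h2, h4]; match_scalars <;> grind)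
    obtain ⟨-, s4⟩ := c (a2 ((1 + μ) / μ)) d3 (y' := x + ((μ + 1) * a) • v)
      (g' := f + ((μ⁻¹ + 1) * (f ⬝ᵥ v)) • w + ((μ + 1) * (f ⬝ᵥ z)) • g)
      (by simp [e3, h4, h7]; match_scalars <;> grind) (by simp [h6, h7]; match_scalars <;> grind)
    rw [← s4, ← s3, ← s2, ← s1, e4]; group
  refine ⟨_, mul_mem (mul_mem (mul_mem (m2 _) (m1 1)) (m2 _)) (m1 _), fun a b c => ?_,
    fun a b h => (T.cj_pt h fun f hf => ⟨_, ?_, (k (a := a) hf (by simp [*]) (by simp [*]) rfl).trans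
      (congrFun (congrArg τ ?_) _)⟩).2⟩
  · rw [k (a := a) (by simp [*]) (by simp [*]) (by simp [*]) rfl]
    simp only [smul_dotProduct, h2, h6, smul_eq_mul]
    congr 1 <;> match_scalars <;> grind [CharTwo.two_eq_zero (R := F)]
  · simp [*] at hf ⊢
    grind [CharTwo.two_eq_zero (R := F)]
  · match_scalars <;> grind [CharTwo.two_eq_zero (R := F)]

end TS

end CfsgLib.L3N
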