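import Mathlib
import Cfsg.Agent.Lib.L3N.Pt

/-!
The incidence graph of `L₃(q)`, `q` even, as a graph of subgroups.
-/

set_option autoImplicit false
set_option linter.unusedSectionVars false

namespace CfsgLib.L3N

open Matrix hiding mul_inv_rev

variable {G : Type*} [Group G] {N : Subgroup G}

/-- The local facts on `N ≅ L₃(q)`. -/
structure Tri (q : ℕ) (N : Subgroup G) : Prop where
  two : ∀ e ∈ N, e * e = 1 → e ≠ 1 → ∃ E W, Vx N E q ∧ Vx N W q ∧ E ≠ W ∧ e ∈ E ∧ e ∈ W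
  card_inf : ∀ {E W}, Vx N E q → Vx N W q → Adj E W → Nat.card (E ⊓ W :) = q
  norm : ∀ {E W w}, Vx N E q → Vx N W q → Adj E W → w ∈ W → w • E = E
  fix : ∀ {E W U e}, Vx N E q → Vx N W q → Vx N U q → E ≠ W → e ∈ E → e ∈ W → e ≠ 1 → e • U = U →
    Adj U E ∨ Adj U W
  nsame : ∀ {E W}, Vx N E q → Adj E W → ¬ Same N E W
  same_or : ∀ {E W U}, Vx N E q → Vx N W q → Vx N U q → Adj E W → Same N E U ∨ Same N W U
  join : ∀ {E U}, Vx N E q → Same N E U → ∃ W, Vx N W q ∧ Adj E W ∧ Adj U W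
  uniq : ∀ {E U W W'}, Vx N E q → Vx N U q → Vx N W q → Vx N W' q → Adj E W → Adj U W → Adj E W' →
    Adj U W' → E = U ∨ W = W'
  cent : ∀ {E W e w}, Vx N E q → Vx N W q → Adj E W → e ∈ E → w ∈ W → Commute e w → e ∈ W ∨ w ∈ E
  surj : ∀ {E W e z}, Vx N E q → Vx N W q → Adj E W → e ∈ E → e ∉ W → z ∈ E → z ∈ W →
    ∃ w ∈ W, w * e * w⁻¹ = e * z
  nbtr : ∀ {E W U U'}, Vx N E q → Vx N W q → Vx N U q → Vx N U' q → Adj E W → Adj E U → Adj E U' →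
    U ≠ W → U' ≠ W → ∃ w ∈ W, w • U = U'
  opp : ∀ {E U U'}, Vx N E q → Vx N U q → Vx N U' q → ¬ Same N E U → ¬ Same N E U' → ¬ Adj E U →
    ¬ Adj E U' → ∃ e ∈ E, e • U = U'
  tr1 : ∀ {E e e'}, Vx N E q → e ∈ E → e' ∈ E → e ≠ 1 → e' ≠ 1 → ∃ h ∈ HE N E q, h * e * h⁻¹ = e'
  tr2 : ∀ {E W t t'}, Vx N E q → Vx N W q → Adj E W → t ∈ W → t' ∈ W → t ∉ E → t' ∉ E →
    ∃ h ∈ HE N E q, h • W = W ∧ h * t * h⁻¹ * t' ∈ E
  tor : ∀ {E W U U' U''}, Vx N E q → Vx N W q → Vx N U q → Vx N U' q → Vx N U'' q → Adj E W →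
    Adj U W → Adj U' W → Adj U'' W → U ≠ E → U' ≠ E → U'' ≠ E → U' ≠ U → U'' ≠ U →
    ∃ h ∈ HE N E q, h • U = U ∧ h • U' = U''
  gl1 : ∀ {E W s s' x₀}, Vx N E q → Vx N W q → Adj E W → s • E = E → s • W = W → s' • E = E →
    s' • W = W → (∀ h ∈ HE N E q, s * h * s⁻¹ ∈ N) → (∀ h ∈ HE N E q, s' * h * s'⁻¹ ∈ N) → s * s = 1 →
    x₀ ≠ 1 → x₀ ∈ E → x₀ ∈ W → Commute s x₀ → (∀ x ∈ E, x ∈ W → (Commute s x ↔ Commute s' x)) →
    ∀ x ∈ E, x ∈ W → s * x * s⁻¹ = s' * x * s'⁻¹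
  ex : ∃ E W, Vx N E q ∧ Vx N W q ∧ Adj E W
  simple : IsSimpleGroup N
  card : Nat.gcd 3 (q - 1) * Nat.card N = q ^ 3 * ((q ^ 2 - 1) * (q ^ 3 - 1))
  pow : ∃ n, 1 ≤ n ∧ q = 2 ^ n

variable {F : Type*} [Field F] [Fintype F] [CharP F 2] {x y z v f g : Fin 3 → F}
  {τ : (Fin 3 → F) → (Fin 3 → F) → G} {e n s : G} {E W : Subgroup G}

namespace TS

variable (T : TS τ N) [Finite G]
include T

theorem mem_inf (h1 : e ∈ T.pt x) (h2 : e ∈ T.flip.pt f) : ∃ c : F, e = τ x (c • f) := by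
  obtain ⟨g, h3, rfl⟩ := h1
  by_cases h4 : τ x g = 1
  · exact ⟨0, by rw [h4, zero_smul, T.zero_right]⟩
  obtain ⟨c, rfl⟩ := T.flip.par_of_mem (dc h3) h4 h2
  exact ⟨c, rfl⟩

theorem smul_inj (h : f ⬝ᵥ x = 0) (hx : x ≠ 0) (hf : f ≠ 0) {c d : F}
    (e : τ x (c • f) = τ x (d • f)) : c = d := by
  rw [T.ext (by simp [h]) (by simp [h]), ← sub_eq_zero, ← vecMulVec_sub, vecMulVec_eq_zero,
    ← sub_smul] at e
  simpa [hx, hf, sub_eq_zero] using e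

theorem mem_ln' (h : f ⬝ᵥ x = 0) (c : F) : τ x (c • f) ∈ T.flip.pt f :=
  T.smul h c ▸ T.mem_ln (by simp [h])

theorem fix_pt (h : f ⬝ᵥ x = 0) (h0 : τ x f ≠ 1) (hy : y ≠ 0) (h1 : τ x f • T.pt y = T.pt y) :
    f ⬝ᵥ y = 0 := by
  by_contra h2
  obtain ⟨h3, h4⟩ := T.tau_pt h hy
  obtain ⟨c, e⟩ := T.par_of_eq (h4.symm.trans h1) h3
  have h5 := congrArg (f ⬝ᵥ ·) e
  simp [h, h2] at h5
  rw [h5, one_smul, add_eq_left, smul_eq_zero_iff_right h2] at e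
  exact (T.nz h h0).1 e

theorem wlog2 (hE : Vx N E (Fintype.card F)) (hW : Vx N W (Fintype.card F)) (h : Adj E W) :
    ∃ (τ : (Fin 3 → F) → (Fin 3 → F) → G) (T : TS τ N) (x f : Fin 3 → F),
      x ≠ 0 ∧ f ≠ 0 ∧ f ⬝ᵥ x = 0 ∧ E = T.pt x ∧ W = T.flip.pt f := by
  obtain ⟨τ, T, x, hx, rfl⟩ := T.wlog hE
  obtain ⟨f, h1, h2, rfl⟩ := T.adj_pt hx hW h
  exact ⟨τ, T, x, f, hx, h1, h2, rfl, rfl⟩

theorem npar (hx : x ≠ 0) (h : T.pt x ≠ T.pt y) : ¬ Par x y := fun e => h (T.pt_eq e hx)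

theorem step (hy : y ≠ 0) (h1 : f ⬝ᵥ y = 0) (h2 : g ⬝ᵥ y = 0) (hg : g ≠ 0) (h : ¬ Par f g) :
    ∃ k ∈ HE N (T.pt y) (Fintype.card F), k * τ y f * k⁻¹ = τ y g := by
  obtain ⟨u, h3, h4⟩ := exists_dual h
  obtain ⟨w, h5, h6⟩ := exists_dual (mt (·.symm hg) h)
  have h7 : (f + g) ⬝ᵥ (u + w) = 0 := dc (by simp [*, CharTwo.add_self_eq_zero])
  refine ⟨_, T.mem_HE hy h7 (by simp [*]), (T.conj h7 h1).trans ?_⟩
  simp [h1, h2, dotProduct_comm f, h3, h6, ← add_assoc, add_self]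

theorem semi (hy : y ≠ 0) (hg : g ≠ 0) (h : g ⬝ᵥ y = 0) (h1 : s • T.pt y = T.pt y)
    (h2 : s • T.flip.pt g = T.flip.pt g) (h3 : ∀ k ∈ HE N (T.pt y) (Fintype.card F), s * k * s⁻¹ ∈ N)
    (h4 : Commute s (τ y g)) : ∃ σ : F → F, (∀ c, s * τ y (c • g) * s⁻¹ = τ y (σ c • g)) ∧
      (∀ c d, σ (c + d) = σ c + σ d) ∧ ∀ c d, σ (c * d) = σ c * σ d := by
  choose σ hσ using fun c : F => T.mem_inf (mem_of_cj h1 (T.mem_pt (f := c • g) (by simp [h])))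
    (mem_of_cj h2 (T.mem_ln' h c))
  have a : ∀ c d : F, τ y ((c + d) • g) = τ y (c • g) * τ y (d • g) := fun c d => by
    rw [add_smul, T.addr (by simp [h]) (by simp [h])]
  refine ⟨σ, hσ, fun c d => T.smul_inj h hy hg ?_, fun c d => T.smul_inj h hy hg ?_⟩
  · rw [← hσ, a, a, ← hσ, ← hσ]; group
  by_cases hd : d = 0
  · rw [← hσ, show σ d = 0 from T.smul_inj h hy hg (by rw [← hσ, hd]; simp [T.zero_right]), hd]
    simp [T.zero_right]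
  obtain ⟨v, h5, h6⟩ := exists_not_par g y
  obtain ⟨k, hk, h7, -⟩ := T.torus hy hg h (dc h5) h6 hd
  replace h7 := h7 0 1
  simp only [zero_mul, zero_smul, one_smul, zero_add] at h7
  obtain ⟨M, M', h8⟩ := T.act _ (h3 k hk)
  have h9 : τ (M y) (M' g) = τ y (σ d • g) := by
    rw [← (h8 y g h).2, ← hσ, ← one_mul d, ← h7, one_smul]
    nth_rw 1 [← mul_inv_cancel_right (τ y g) s, ← h4.eq]
    group
  have h10 := (h8 y (σ c • g) (by simp [h])).2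
  rw [← hσ, map_smul] at h10
  have h11 : τ (M y) (σ c • M' g) = τ y ((σ c * σ d) • g) :=
    (T.ext (by simp [(h8 y g h).1]) (by simp [h])).2 (by
      rw [vecMulVec_smul, (T.ext (h8 y g h).1 (by simp [h])).1 h9, ← vecMulVec_smul, smul_smul])
  rw [← hσ, ← h7, ← h11, ← h10]
  group

theorem tri : Tri (Fintype.card F) N where
  two e he h h0 := by
    obtain ⟨x, f, h1, rfl⟩ := T.inv e he h
    exact ⟨_, _, T.vx_pt (T.nz h1 h0).1, T.flip.vx_pt (T.nz h1 h0).2, T.pt_ne (T.nz h1 h0).1,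
      T.mem_pt h1, T.mem_ln h1⟩
  card_inf hE hW hA := by
    obtain ⟨τ, T, x, f, hx, hf, h, rfl, rfl⟩ := T.wlog2 hE hW hA
    rw [← Nat.card_eq_fintype_card]
    exact (Nat.card_congr (Equiv.ofBijective (fun c : F => (⟨τ x (c • f), T.mem_pt (by simp [h]),
      T.mem_ln' h c⟩ : (T.pt x ⊓ T.flip.pt f :))) ⟨fun c d e => T.smul_inj h hx hf (congrArg Subtype.val e),
      fun e => (T.mem_inf e.2.1 e.2.2).imp fun c h => Subtype.ext h.symm⟩)).symm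
  norm hE hW hA hw := by
    obtain ⟨τ, T, x, f, hx, hf, h, rfl, rfl⟩ := T.wlog2 hE hW hA
    obtain ⟨v, h1, rfl⟩ := hw
    exact (T.tau_pt (dc h1) hx).2.trans (by simp [h])
  fix hE hW hU hA h1 h2 h3 h4 := by
    obtain ⟨τ, T, x, f, hx, hf, h, rfl, rfl⟩ := T.wlog2 hE hW ⟨hA, _, h3, h1, h2⟩
    obtain ⟨c, rfl⟩ := T.mem_inf h1 h2
    have h5 : (c • f) ⬝ᵥ x = 0 := by simp [h]
    have hc := left_ne_zero_of_smul (T.nz h5 h3).2
    obtain ⟨y, hy, rfl⟩ | ⟨g, hg, rfl⟩ := T.cls hU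
    · exact .inr ((T.adj_iff hy hf).2 (by simpa [hc] using T.fix_pt h5 h3 hy h4))
    · exact .inl ((T.adj_iff hx hg).2 (dc (T.flip.fix_pt (dc h5) h3 hg h4))).symm
  nsame hE h h1 := by
    obtain ⟨τ, T, x, hx, rfl⟩ := T.wlog hE
    obtain ⟨y, hy, rfl⟩ := T.same_pt hx h1
    exact T.not_adj hx hy h
  same_or hE hW hU hA := by
    obtain ⟨τ, T, x, f, hx, hf, h, rfl, rfl⟩ := T.wlog2 hE hW hA
    obtain ⟨y, hy, rfl⟩ | ⟨g, hg, rfl⟩ := T.cls hU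
    exacts [.inl (T.same_of hx hy), .inr (T.flip.same_of hf hg)]
  join hE h := by
    obtain ⟨τ, T, x, hx, rfl⟩ := T.wlog hE
    obtain ⟨y, hy, rfl⟩ := T.same_pt hx h
    obtain ⟨f, h1, h2, h3⟩ := exists_orth x y
    exact ⟨_, T.flip.vx_pt h1, (T.adj_iff hx h1).2 h2, (T.adj_iff hy h1).2 h3⟩
  uniq hE hU hW hW' h1 h2 h3 h4 := by
    obtain ⟨τ, T, x, f, hx, hf, h, rfl, rfl⟩ := T.wlog2 hE hW h1
    obtain ⟨g, hg, h5, rfl⟩ := T.adj_pt hx hW' h3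
    obtain ⟨y, hy, h6, rfl⟩ := T.adj_ln hf hU h2
    exact (par_or h h6 h5 ((T.adj_iff hy hg).1 h4) hy hg).imp (T.pt_eq · hx) (T.flip.pt_eq · hf)
  cent hE hW hA he hw hc := by
    obtain ⟨τ, T, x, f, hx, hf, h, rfl, rfl⟩ := T.wlog2 hE hW hA
    obtain ⟨g, h1, rfl⟩ := he
    obtain ⟨v, h2, rfl⟩ := hw
    by_cases h3 : τ x g = 1
    · exact .inl (h3 ▸ one_mem _)
    by_cases h4 : τ v f = 1
    · exact .inr (show τ v f ∈ _ from h4 ▸ one_mem _)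
    exact (T.par_of_comm h1 (dc h2) h3 h4 hc).symm.imp (T.flip.mem_of_par (dc h))
      fun e => T.mem_of_par h (e.symm hx)
  surj hE hW hA he h1 h2 h3 := by
    obtain ⟨τ, T, x, f, hx, hf, h, rfl, rfl⟩ := T.wlog2 hE hW hA
    obtain ⟨g, h4, rfl⟩ := he
    obtain ⟨c, rfl⟩ := T.mem_inf h2 h3
    obtain ⟨v, h5, h6⟩ := exists_dual (x := g) (y := f) fun e => h1 (T.flip.mem_of_par (dc h) e)
    have h7 : f ⬝ᵥ (c • v) = 0 := by simp [dc h6]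
    refine ⟨_, T.mem_ln h7, (T.conj h7 h4).trans ?_⟩
    rw [← T.addr h4 (by simp [h])]
    simp [h, dotProduct_comm g, h5]
  nbtr hE hW hU hU' hA h1 h2 h3 h4 := by
    obtain ⟨τ, T, x, f, hx, hf, h, rfl, rfl⟩ := T.wlog2 hE hW hA
    obtain ⟨g, hg, h5, rfl⟩ := T.adj_pt hx hU h1
    obtain ⟨g', hg', h6, rfl⟩ := T.adj_pt hx hU' h2
    obtain ⟨a, b, rfl⟩ := span_two h5 h h6 hx hf (T.flip.npar hg h3)
    have ha : a ≠ 0 := by rintro rfl; exact T.flip.npar hg' h4 ⟨b, by simp⟩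
    obtain ⟨v, h7, h8⟩ := exists_dual (T.flip.npar hg h3)
    have h9 : f ⬝ᵥ ((b / a) • v) = 0 := by simp [dc h8]
    refine ⟨_, T.mem_ln h9, (T.tau_ln h9 hg).trans (T.flip.pt_eq ⟨a, ?_⟩ hg').symm⟩
    simp [dotProduct_comm g, h7, smul_smul, mul_div_cancel₀, ha]
  opp hE hU hU' h1 h2 h3 h4 := by
    obtain ⟨τ, T, x, hx, rfl⟩ := T.wlog hE
    obtain ⟨g, hg, rfl⟩ := T.nsame_ln hx hU h1
    obtain ⟨g', hg', rfl⟩ := T.nsame_ln hx hU' h2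
    rw [T.adj_iff hx hg] at h3
    rw [T.adj_iff hx hg'] at h4
    have h5 : ((g ⬝ᵥ x)⁻¹ • g + (g' ⬝ᵥ x)⁻¹ • g') ⬝ᵥ x = 0 := by simp [h3, h4, CharTwo.add_self_eq_zero]
    refine ⟨_, T.mem_pt h5, (T.tau_ln h5 hg).trans (T.flip.pt_eq ⟨g' ⬝ᵥ x / g ⬝ᵥ x, ?_⟩ hg').symm⟩
    match_scalars <;> grind [CharTwo.two_eq_zero (R := F)]
  tr1 hE he he' h1 h2 := by
    obtain ⟨τ, T, y, hy, rfl⟩ := T.wlog hE
    obtain ⟨f, h3, rfl⟩ := he
    obtain ⟨g, h4, rfl⟩ := he'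
    by_cases h : Par f g
    · obtain ⟨u, h5, h6⟩ := exists_not_par y g
      have hu : u ≠ 0 := fun e => h6 ⟨0, by simp [e]⟩
      obtain ⟨k, hk, e⟩ := T.step hy h3 h5 hu fun e => h6 (by
        obtain ⟨c, e1⟩ := e.symm (T.nz h3 h1).2
        obtain ⟨d, e2⟩ := h
        exact ⟨c * d, by rw [e1, e2, smul_smul]⟩)
      obtain ⟨k', hk', e'⟩ := T.step hy h5 h4 (T.nz h4 h2).2 h6
      exact ⟨_, mul_mem hk' hk, by rw [← e', ← e]; group⟩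
    · exact T.step hy h3 h4 (T.nz h4 h2).2 h
  tr2 hE hW hA ht ht' h1 h2 := by
    obtain ⟨τ, T, y, g, hy, hg, h, rfl, rfl⟩ := T.wlog2 hE hW hA
    obtain ⟨x, h3, rfl⟩ := ht
    obtain ⟨x', h4, rfl⟩ := ht'
    have h5 : ¬ Par x y := fun e => h1 (T.mem_of_par h e)
    obtain ⟨a, b, rfl⟩ := span_two h3 (dc h) h4 hg hy h5
    obtain ⟨μ, rfl⟩ := FiniteField.isSquare_of_char_two (ringChar.eq F 2) a
    have hμ : μ ≠ 0 := by rintro rfl; exact h2 (T.mem_of_par h ⟨b, by simp⟩)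
    obtain ⟨k, hk, h6, -⟩ := T.torus hy hg h (dc h3) h5 hμ
    refine ⟨k, hk, cj_eq ?_, ?_⟩
    · rintro _ ⟨z, h7, rfl⟩
      obtain ⟨c, d, rfl⟩ := span_two h3 (dc h) h7 hg hy h5
      have := h6 c d 1
      rw [one_smul] at this
      exact (show _ * τ _ _ * _ = _ from this) ▸ T.mem_ln' (by simp [h, dc h3]) _
    · have := h6 1 0 1
      simp only [one_smul, zero_smul, add_zero, one_mul] at this
      show k * τ x g * k⁻¹ * τ _ g ∈ _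
      rw [this, ← T.smul (by simp [dc h3]), ← T.addl (by simp [dc h3]) (dc h4), smul_smul, ← add_assoc,
        add_self, zero_add]
      exact T.mem_of_par h ⟨b, rfl⟩
  tor hE hW hU hU' hU'' hA k1 k2 k3 h4 h5 h6 h7 h8 := by
    obtain ⟨τ, T, y, g, hy, hg, h, rfl, rfl⟩ := T.wlog2 hE hW hA
    obtain ⟨v, hv, h1, rfl⟩ := T.adj_ln hg hU k1
    obtain ⟨x, hx, h2, rfl⟩ := T.adj_ln hg hU' k2
    obtain ⟨z, hz, h3, rfl⟩ := T.adj_ln hg hU'' k3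
    obtain ⟨a, b, rfl⟩ := span_two (dc h1) (dc h) (dc h2) hg hy (T.npar hv h4)
    obtain ⟨c, d, rfl⟩ := span_two (dc h1) (dc h) (dc h3) hg hy (T.npar hv h4)
    have ha : a ≠ 0 := by rintro rfl; exact T.npar hx h5 ⟨b, by simp⟩
    have hb : b ≠ 0 := by rintro rfl; exact T.npar hx h7 ⟨a, by simp⟩
    have hc : c ≠ 0 := by rintro rfl; exact T.npar hz h6 ⟨d, by simp⟩
    have hd : d ≠ 0 := by rintro rfl; exact T.npar hz h8 ⟨c, by simp⟩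
    have hμ : c * b / (a * d) ≠ 0 := by simp [*]
    obtain ⟨k, hk, -, h9⟩ := T.torus hy hg h h1 (T.npar hv h4) hμ
    refine ⟨k, hk, ?_, (h9 a b hx).trans (T.pt_eq ⟨d / b, ?_⟩ hz).symm⟩
    · have := h9 1 0 (by simpa)
      simp only [one_smul, zero_smul, add_zero, one_mul] at this
      exact this.trans (T.pt_eq ⟨_, rfl⟩ (smul_ne_zero hμ hv))
    · match_scalars <;> field_simp
  gl1 {_ _ s s' _} hE hW hA h1 h2 h3 h4 h5 h6 h7 h8 h9 h10 h11 h12 x hx hx' := by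
    obtain ⟨τ, T, y, g, hy, hg, h, rfl, rfl⟩ := T.wlog2 hE hW hA
    have h13 := (h12 _ h9 h10).1 h11
    obtain ⟨c, rfl⟩ := T.mem_inf h9 h10
    have h' : (c • g) ⬝ᵥ y = 0 := by simp [h]
    have hg' := (T.nz h' h8).2
    rw [← T.flip.pt_eq ⟨c, rfl⟩ hg'] at h2 h4 h12 hx'
    generalize c • g = g at *
    obtain ⟨σ, a1, a2, a3⟩ := T.semi hy hg' h' h1 h2 h5 h11
    obtain ⟨ρ, b1, b2, b3⟩ := T.semi hy hg' h' h3 h4 h6 h13
    obtain ⟨a, rfl⟩ := T.mem_inf hx hx'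
    have k : ∀ c, σ c = c ↔ ρ c = c := fun c => by
      have := h12 _ (T.mem_pt (f := c • g) (by simp [h'])) (T.mem_ln' h' c)
      rw [Commute, Commute, SemiconjBy, SemiconjBy, ← mul_inv_eq_iff_eq_mul, ← mul_inv_eq_iff_eq_mul,
        a1, b1] at this
      exact ⟨fun e => T.smul_inj h' hy hg' (this.1 (by rw [e])),
        fun e => T.smul_inj h' hy hg' (this.2 (by rw [e]))⟩
    have k1 : σ (σ a) = a := T.smul_inj h' hy hg' (by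
      rw [← a1, ← a1, ← mul_assoc, ← mul_assoc, h7, one_mul, mul_assoc, ← mul_inv_rev, h7, inv_one, mul_one])
    have k2 := (k (a + σ a)).1 (by rw [a2, k1, add_comm])
    have k3 := (k (a * σ a)).1 (by rw [a3, k1, mul_comm])
    rw [b2] at k2
    rw [b3] at k3
    rw [a1, b1]
    obtain e | e : ρ a = a ∨ ρ a = σ a := by grind
    · rw [e, (k a).2 e]
    · rw [e]
  ex := by
    obtain ⟨f, h1, h2, -⟩ := exists_orth (1 : Fin 3 → F) 1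
    exact ⟨_, _, T.vx_pt one_ne_zero, T.flip.vx_pt h1, (T.adj_iff one_ne_zero h1).2 h2⟩
  simple := T.simple
  card := T.card
  pow := let ⟨n, _, h⟩ := FiniteField.card F 2; ⟨n, n.2, h⟩

end TS

end CfsgLib.L3N
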