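import Mathlib
import Cfsg.Agent.Lib.L3N.Tri

/-!
Consequences of the local facts.
-/

set_option autoImplicit false
set_option linter.unusedSectionVars false

namespace CfsgLib.L3N

open MulAction

variable {G : Type*} [Group G] {N E W U U' H Y E' W' : Subgroup G} {q : ℕ} {e e' n s t w y z : G}

theorem Vx.cj (h : Vx N E q) (s : G) : Vx (s • N) (s • E) q :=
  ⟨cj_mono h.le, fun e he => by simpa [mul_assoc] using congrArg (s * · * s⁻¹) (h.sq _ (mem_cj.1 he)),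
    card_cj.trans h.card⟩

theorem Vx.nj (h : Vx N E q) (hs : s • N = N) : Vx N (s • E) q := hs ▸ h.cj s

theorem Adj.cj (h : Adj E W) (s : G) : Adj (s • E) (s • W) :=
  let ⟨h1, e, h2, h3, h4⟩ := h
  ⟨fun k => h1 (smul_left_cancel s k), s * e * s⁻¹, by simpa using h2, cj_mem.2 h3, cj_mem.2 h4⟩

theorem adj_cj : Adj (s • E) (s • W) ↔ Adj E W := ⟨fun h => by simpa using h.cj s⁻¹, (·.cj s)⟩

theorem Same.refl : Same N E E := ⟨1, one_mem _, one_smul _ _⟩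

theorem Same.symm (h : Same N E U) : Same N U E := let ⟨_, h1, h2⟩ := h; ⟨_, inv_mem h1, inv_cj h2⟩

theorem Same.trans (h : Same N E U) (h' : Same N U W) : Same N E W :=
  let ⟨_, h1, h2⟩ := h; let ⟨_, h3, h4⟩ := h'; ⟨_, mul_mem h3 h1, by rw [mul_smul, h2, h4]⟩

theorem Same.vx (h : Same N E U) (hE : Vx N E q) : Vx N U q :=
  let ⟨_, h1, h2⟩ := h; h2 ▸ hE.nj (cj_self h1)

theorem Same.cj (h : Same N E U) (s : G) : Same (s • N) (s • E) (s • U) :=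
  let ⟨_, h1, h2⟩ := h; ⟨_, cj_mem.2 h1, by rw [mul_smul, mul_smul, inv_smul_smul, h2]⟩

theorem HE_le (h : ∀ W, Vx N W q → Adj E W → W ≤ H) : HE N E q ≤ H :=
  (Subgroup.closure_le _).2 fun _ ⟨W, h1, h2, h3⟩ => h W h1 h2 h3

theorem HE_le_N : HE N E q ≤ N := HE_le fun _ h _ => h.le

theorem le_HE (h1 : Vx N W q) (h2 : Adj E W) : W ≤ HE N E q := fun _ h =>
  Subgroup.subset_closure ⟨W, h1, h2, h⟩

variable (N) in
/-- The centralizer. -/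
abbrev CN : Subgroup G := Subgroup.centralizer (N : Set G)

theorem CN.comm (h : s ∈ CN N) (hn : n ∈ N) : Commute n s := h n hn

theorem CN.cj (h : t ∈ CN N) (s : G) : s * t * s⁻¹ ∈ CN (s • N) := fun n hn => by
  simpa [mul_assoc] using congrArg (s * · * s⁻¹) (h _ (mem_cj.1 hn))

theorem comm_cj (h : Commute s e) : s * e * s⁻¹ = e := by rw [h.eq, mul_inv_cancel_right]

theorem of_cj (h : s * e * s⁻¹ = e) : Commute s e := mul_inv_eq_iff_eq_mul.1 h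

variable [Finite G]

theorem fix_of_comm (h : ∀ e ∈ E, Commute s e) : s • E = E :=
  cj_eq fun e he => (comm_cj (h e he)).symm ▸ he

theorem CN.fix (h : s ∈ CN N) (hE : E ≤ N) : s • E = E :=
  fix_of_comm fun _ he => (CN.comm h (hE he)).symm

theorem mem_sup (h : ∀ w ∈ W, w • E = E) (ht : t ∈ E ⊔ W) : ∃ e ∈ E, ∃ w ∈ W, e * w = t := by
  rwa [← SetLike.mem_coe, Subgroup.coe_mul_of_right_le_normalizer_left _ _ (le_norm h)] at ht

theorem card_sup (h : ∀ w ∈ W, w • E = E) :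
    Nat.card (E ⊔ W :) * Nat.card (E ⊓ W :) = Nat.card E * Nat.card W := by
  rw [sup_comm, inf_comm, Core.card_sup_mul_card_inf_of_le_normalizer (le_norm h), mul_comm]

theorem card_orbit {X : Type*} [MulAction G X] (x : X) :
    (orbit H x).ncard * Nat.card (H ⊓ stabilizer G x :) = Nat.card H := by
  rw [← index_stabilizer, ← (stabilizer H x).index_mul_card, inf_comm,
    ← Nat.card_congr (Subgroup.subgroupOfEquivOfLe (inf_le_right (a := stabilizer G x))).toEquiv,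
    Subgroup.inf_subgroupOf_right]
  rfl

namespace Tri

variable (T : Tri q N)
include T

theorem q2 : 2 ≤ q := by
  obtain ⟨n, h, rfl⟩ := T.pow
  exact Nat.le_self_pow (by omega) 2

theorem same (hE : Vx N E q) (hW : Vx N W q) (hU : Vx N U q) (h1 : Adj E W) (h2 : Adj E U) :
    Same N W U := (T.same_or hE hW hU h1).resolve_left (T.nsame hE h2)

theorem three (hE : Vx N E q) (hW : Vx N W q) (hU : Vx N U q) (h : E ≠ W) (h0 : e ≠ 1) (h1 : e ∈ E)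
    (h2 : e ∈ W) (h3 : e ∈ U) : U = E ∨ U = W := by
  by_contra! k
  exact T.nsame hW ⟨k.2.symm, e, h0, h2, h3⟩ (T.same hE hW hU ⟨h, e, h0, h1, h2⟩ ⟨k.1.symm, e, h0, h1, h3⟩)

theorem eq_of_same (hE : Vx N E q) (h : Same N E U) (h0 : e ≠ 1) (h1 : e ∈ E) (h2 : e ∈ U) : E = U :=
  by_contra fun k => T.nsame hE ⟨k, e, h0, h1, h2⟩ h

theorem other (hE : Vx N E q) (h0 : e ≠ 1) (h1 : e ∈ E) : ∃ W, Vx N W q ∧ Adj E W ∧ e ∈ W := by
  obtain ⟨U, W, hU, hW, h, h2, h3⟩ := T.two e (hE.le h1) (hE.sq e h1) h0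
  obtain rfl | rfl := T.three hU hW hE h h0 h2 h3 h1
  exacts [⟨W, hW, ⟨h, e, h0, h1, h3⟩, h3⟩, ⟨U, hU, ⟨h.symm, e, h0, h1, h2⟩, h2⟩]

theorem exn (hE : Vx N E q) (hW : Vx N W q) (h : E ≠ W) : ∃ e ∈ E, e ∉ W :=
  SetLike.not_le_iff_exists.1 fun k => h (Subgroup.eq_of_le_of_card_ge k (hW.card.trans hE.card.symm).le)

theorem card_T (hE : Vx N E q) (hW : Vx N W q) (h : Adj E W) : Nat.card (E ⊔ W :) = q ^ 3 := by
  have := card_sup fun _ => T.norm hE hW h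
  rw [T.card_inf hE hW h, hE.card, hW.card] at this
  exact mul_right_cancel₀ (by have := T.q2; omega) (this.trans (by ring))

theorem mem_T (hE : Vx N E q) (hW : Vx N W q) (h : Adj E W) (ht : t ∈ E ⊔ W) :
    ∃ e ∈ E, ∃ w ∈ W, e * w = t := mem_sup (fun _ => T.norm hE hW h) ht

theorem prod (hE : Vx N E q) (hW : Vx N W q) (hU : Vx N U q) (h1 : Adj E W) (h2 : Adj U W)
    (h : E ≠ U) (hw : w ∈ W) : ∃ x ∈ E, x ∈ W ∧ ∃ y ∈ U, y ∈ W ∧ x * y = w := by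
  have k : ∀ w ∈ U ⊓ W, w • (E ⊓ W) = E ⊓ W := fun w hw => by
    rw [cj_inf, T.norm hE hW h1 hw.2, cj_self hw.2]
  have h3 := card_sup k
  rw [T.card_inf hE hW h1, T.card_inf hU hW h2, (Subgroup.eq_bot_iff_forall (E ⊓ W ⊓ (U ⊓ W))).2 fun x hx => by_contra
    fun h0 => h (T.eq_of_same hE (T.same hW hE hU h1.symm h2.symm) h0 hx.1.1 hx.2.1), Subgroup.card_bot,
    mul_one] at h3
  obtain ⟨x, hx, y, hy, h4⟩ := mem_sup k ((Subgroup.eq_of_le_of_card_ge (sup_le inf_le_right inf_le_right)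
    (by rw [h3, hW.card, sq])).ge hw)
  exact ⟨x, hx.1, hx.2, y, hy.1, hy.2, h4⟩

theorem stab (hE : Vx N E q) (hW : Vx N W q) (hU : Vx N U q) (h1 : Adj E W) (h2 : Adj E U)
    (h : U ≠ W) (hw : w ∈ W) (h3 : w • U = U) : w ∈ E := by
  by_contra h4
  have h0 : w ≠ 1 := fun e => h4 (e ▸ one_mem _)
  obtain ⟨D, hD, h5, h6⟩ := T.other hW h0 hw
  obtain h7 | h7 := T.fix hW hD hU h5.1 hw h6 h0 h3
  · exact T.nsame hU h7 (T.same hE hU hW h2 h1)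
  · obtain rfl | rfl := T.uniq hE hD hW hU h1 h5.symm h2 h7.symm
    exacts [h4 h6, h rfl]

theorem ex_nb (hE : Vx N E q) (hW : Vx N W q) (h : Adj E W) : ∃ U, Vx N U q ∧ Adj E U ∧ U ≠ W := by
  obtain ⟨e, h1, h2⟩ := T.exn hE hW h.1
  obtain ⟨U, h3, h4, h5⟩ := T.other hE (fun k : e = 1 => h2 (k ▸ one_mem W)) h1
  exact ⟨U, h3, h4, fun k => h2 (k ▸ h5)⟩

theorem card_nb (hE : Vx N E q) : {W | Vx N W q ∧ Adj E W}.ncard = q + 1 := by
  obtain ⟨W, hW, h, -⟩ := T.join hE Same.refl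
  obtain ⟨U, hU, h1, h2⟩ := T.ex_nb hE hW h
  have k : ∀ w : W, Vx N (w.1 • U) q ∧ Adj E (w.1 • U) := fun w =>
    ⟨hU.nj (cj_self (hW.le w.2)), T.norm hE hW h w.2 ▸ h1.cj w⟩
  have h3 := card_orbit (H := W) U
  rw [show W ⊓ stabilizer G U = E ⊓ W from le_antisymm (fun w hw => ⟨T.stab hE hW hU h h1 h2 hw.1 hw.2,
    hw.1⟩) fun w hw => ⟨hw.2, T.norm hU hE h1.symm hw.1⟩, T.card_inf hE hW h, hW.card, sq,
    mul_left_inj' (by have := T.q2; omega)] at h3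
  rw [show {W | Vx N W q ∧ Adj E W} = insert W (orbit W U) from Set.ext fun V => ⟨fun hV =>
    or_iff_not_imp_left.2 fun h4 => let ⟨w, h5, h6⟩ := T.nbtr hE hW hU hV.1 h h1 hV.2 h2 h4; ⟨⟨w, h5⟩, h6⟩,
    by rintro (rfl | ⟨w, rfl⟩); exacts [⟨hW, h⟩, k w]⟩, Set.ncard_insert_of_notMem, h3]
  exact fun ⟨w, e⟩ => h2 ((inv_cj e).symm.trans (cj_self (inv_mem w.2)))

theorem third (hE : Vx N E q) (U U' : Subgroup G) : ∃ W, Vx N W q ∧ Adj E W ∧ W ≠ U ∧ W ≠ U' := by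
  obtain ⟨W, h1, h2⟩ := Set.exists_mem_notMem_of_ncard_lt_ncard (s := {U, U'})
    (t := {W | Vx N W q ∧ Adj E W}) (by
      have := Set.ncard_insert_le U {U'}
      have := T.q2
      rw [T.card_nb hE]; simp only [Set.ncard_singleton] at *; omega)
  exact ⟨W, h1.1, h1.2, not_or.1 h2⟩

theorem card_cls (hE : Vx N E q) : {U | Same N E U}.ncard = q ^ 2 + (q + 1) := by
  obtain ⟨W, hW, h, -⟩ := T.join hE Same.refl
  obtain ⟨V, hV, h1, h2⟩ := T.ex_nb hE hW h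
  obtain ⟨U, hU, h3, h4⟩ := T.ex_nb hV hE h1.symm
  have s1 := T.same hV hE hU h1.symm h3
  have n1 : ∀ {U}, Same N E U → ¬ Same N W U := fun s k => T.nsame hE h (s.trans k.symm)
  have h5 : ¬ Adj W U := fun k => (T.uniq hE hU hW hV h k.symm h1 h3.symm).elim (h4 ·.symm) (h2 ·.symm)
  have h6 := card_orbit (H := W) U
  rw [(Subgroup.eq_bot_iff_forall (_ ⊓ _)).2 fun w hw => by_contra fun h0 => by
    obtain ⟨D, hD, h7, h8⟩ := T.other hW h0 hw.1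
    exact (T.fix hW hD hU h7.1 hw.1 h8 h0 hw.2).elim (h5 ·.symm) fun k =>
      T.nsame hU k (s1.symm.trans (T.same hW hE hD h.symm h7)), Subgroup.card_bot, mul_one, hW.card] at h6
  rw [← h6, ← T.card_nb hW, ← Set.ncard_union_eq (Set.disjoint_left.2 ?_)]
  · congr 1
    refine Set.ext fun V => ⟨fun hV => or_iff_not_imp_right.2 fun k => ?_, ?_⟩
    · obtain ⟨w, h7, h8⟩ := T.opp hW hU (hV.vx hE) (n1 s1) (n1 hV) h5 fun k' => k ⟨hV.vx hE, k'⟩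
      exact ⟨⟨w, h7⟩, h8⟩
    · rintro (⟨w, rfl⟩ | k)
      exacts [s1.trans ⟨w, hW.le w.2, rfl⟩, T.same hW hE k.1 h.symm k.2]
  · rintro _ ⟨w, rfl⟩ k
    exact h5 (adj_cj.1 (by rw [cj_self w.2]; exact k.2))

theorem le_or (h : ∀ n ∈ N, ∀ y ∈ Y, y ∈ N → n * y * n⁻¹ ∈ Y) : N ≤ Y ∨ ∀ y ∈ Y, y ∈ N → y = 1 := by
  have := T.simple
  obtain k | k := (show (Y.subgroupOf N).Normal from ⟨fun y hy n => h n n.2 y hy y.2⟩).eq_bot_or_eq_top
  · exact .inr fun y h1 h2 => congrArg Subtype.val ((Subgroup.eq_bot_iff_forall _).1 k ⟨y, h2⟩ h1)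
  · exact .inl (Subgroup.subgroupOf_eq_top.1 k)

theorem nc (hn : n ∈ N) (h : n ∈ CN N) : n = 1 := by
  refine (T.le_or (Y := CN N) fun n hn y hy _ => (comm_cj (CN.comm hy hn)).symm ▸ hy).resolve_left
    (fun k => ?_) n h hn
  obtain ⟨E, W, hE, hW, h⟩ := T.ex
  obtain ⟨w, h1, h2⟩ := T.exn hW hE h.1.symm
  obtain ⟨e, h3, h4⟩ := T.exn hE hW h.1
  exact (T.cent hE hW h h3 h1 (CN.comm (k (hW.le h1)) (hE.le h3))).elim h4 h2

theorem gen (h : ∀ U, Vx N U q → U ≤ H) : N ≤ H := by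
  obtain ⟨E, W, hE, hW, -, e, h0, h1, -⟩ := T.ex
  refine ((T.le_or (Y := Subgroup.closure {e | ∃ U, Vx N U q ∧ e ∈ U}) fun n hn y hy _ =>
    ?_).resolve_right fun k => h0 (k e (Subgroup.subset_closure ⟨E, hE, h1⟩) (hE.le h1))).trans
    ((Subgroup.closure_le _).2 fun _ ⟨U, h2, h3⟩ => h U h2 h3)
  have : Subgroup.closure {e | ∃ U, Vx N U q ∧ e ∈ U} ≤ n⁻¹ • Subgroup.closure {e | ∃ U, Vx N U q ∧ e ∈ U} :=
    (Subgroup.closure_le _).2 fun e ⟨U, h2, h3⟩ => mem_cj.2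
      (Subgroup.subset_closure ⟨_, h2.nj (cj_self hn), by simpa using cj_mem.2 h3⟩)
  simpa using mem_cj.1 (this hy)

theorem HE_fix (hE : Vx N E q) (h : s ∈ HE N E q) : s • E = E :=
  HE_le (H := stabilizer G E) (fun _ h1 h2 _ => T.norm hE h1 h2) h

theorem eq_one_of_HE (hE : Vx N E q) (he : e ∈ E) (h : ∀ k ∈ HE N E q, Commute k e) : e = 1 := by
  by_contra h0
  obtain ⟨W, hW, h1, h2⟩ := T.other hE h0 he
  obtain ⟨x, h3, h4⟩ := T.exn hE hW h1.1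
  obtain ⟨k, hk, rfl⟩ := T.tr1 hE he h3 h0 fun e => h4 (e ▸ one_mem _)
  exact h4 ((comm_cj (h k hk)).symm ▸ h2)

theorem conj_inv (he : e ∈ N) (he' : e' ∈ N) (h1 : e * e = 1) (h2 : e' * e' = 1) (h3 : e ≠ 1)
    (h4 : e' ≠ 1) : ∃ n ∈ N, n * e * n⁻¹ = e' := by
  obtain ⟨E, W, hE, hW, h, h5, h6⟩ := T.two e he h1 h3
  obtain ⟨U, -, hU, -, -, h7, -⟩ := T.two e' he' h2 h4
  obtain ⟨n, hn, h8⟩ : ∃ n ∈ N, n * e * n⁻¹ ∈ U :=
    (T.same_or hE hW hU ⟨h, e, h3, h5, h6⟩).elim (fun ⟨n, hn, k⟩ => ⟨n, hn, k ▸ cj_mem.2 h5⟩)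
      fun ⟨n, hn, k⟩ => ⟨n, hn, k ▸ cj_mem.2 h6⟩
  obtain ⟨k, hk, rfl⟩ := T.tr1 hU h8 h7 (by simpa using h3) h4
  exact ⟨_, mul_mem (HE_le_N hk) hn, by group⟩

theorem flag_tr (hE : Vx N E q) (hW : Vx N W q) (h : Adj E W) (hE' : Vx N E' q) (hW' : Vx N W' q)
    (h' : Adj E' W') : ∃ n ∈ N, (n • E = E' ∧ n • W = W') ∨ (n • E = W' ∧ n • W = E') := by
  have k : ∀ {E' W'}, Vx N E' q → Vx N W' q → Adj E' W' → Same N E E' → ∃ n ∈ N, n • E = E' ∧ n • W = W' := by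
    rintro _ W' hE' hW' h' ⟨n, hn, rfl⟩
    obtain ⟨U, hU, h1, h2, h3⟩ := T.third hE' (n • W) W'
    obtain ⟨w, h4, rfl⟩ := T.nbtr hE' hU (hW.nj (cj_self hn)) hW' h1 (h.cj n) h' h2.symm h3.symm
    exact ⟨_, mul_mem (hU.le h4) hn, by rw [mul_smul, T.norm hE' hU h1 h4], mul_smul ..⟩
  exact (T.same_or hE' hW' hE h').elim (fun s => (k hE' hW' h' s.symm).imp fun _ h => ⟨h.1, .inl h.2⟩)
    fun s => (k hW' hE' h'.symm s.symm).imp fun _ h => ⟨h.1, .inr h.2⟩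

theorem cent_of_fix (hs : s • N = N) (h : ∀ U, Vx N U q → s • U = U) : s ∈ CN N := fun n hn => by
  obtain ⟨E, W, hE, hW, h1⟩ := T.ex
  obtain ⟨U, hU, h2, h3⟩ := T.ex_nb hE hW h1
  obtain ⟨w, h4, h5⟩ := T.exn hW hE h1.1.symm
  have k := (T.le_or (Y := ⨅ U : {U // Vx N U q}, stabilizer G U.1) fun n hn y hy _ =>
    Subgroup.mem_iInf.2 fun U => show _ • _ = _ by
      rw [mul_smul, mul_smul, Subgroup.mem_iInf.1 hy ⟨_, U.2.nj (cj_self (inv_mem hn))⟩,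
        smul_inv_smul]).resolve_left fun k =>
      h5 (T.stab hE hW hU h1 h2 h3 h4 (Subgroup.mem_iInf.1 (k (hW.le h4)) ⟨U, hU⟩))
  have := k (n⁻¹ * (s * n * s⁻¹)) (Subgroup.mem_iInf.2 fun U => show _ • _ = _ by
    rw [mul_smul, mul_smul, mul_smul, inv_cj (h _ U.2), h _ (U.2.nj (cj_self hn)), inv_smul_smul])
    (mul_mem (inv_mem hn) (mem_of_cj hs hn))
  exact (of_cj (inv_mul_eq_one.1 this).symm).symm

theorem fix_nb (hs : s • N = N) (hE : Vx N E q) (hW : Vx N W q) (h : Adj E W) (h1 : s • E = E)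
    (h0 : e ≠ 1) (h2 : e ∈ E) (h3 : e ∈ W) (h4 : s * e * s⁻¹ ∈ W) : s • W = W :=
  (T.three hE hW (hW.nj hs) h.1 (by simpa using h0) (mem_of_cj h1 h2) h4 (cj_mem.2 h3)).resolve_left
    fun k => h.1 (smul_left_cancel s (h1.trans k.symm))

theorem G1 (hs : s • N = N) (hE : Vx N E q) (h : ∀ e ∈ E, Commute s e) :
    ∃ e ∈ E, ∃ c ∈ CN N, s = e * c := by
  obtain ⟨W, hW, h1, -⟩ := T.join hE Same.refl
  obtain ⟨U, hU, h2, h3⟩ := T.ex_nb hW hE h1.symm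
  obtain ⟨L, hL, h4, h5⟩ := T.ex_nb hU hW h2.symm
  have s1 := T.same hU hW hL h2.symm h4
  have n1 : ¬ Same N E L := fun k => T.nsame hE h1 (k.trans s1.symm)
  have n2 : ¬ Adj E L := fun k => (T.uniq hE hU hW hL h1 h2.symm k h4).elim (h3 ·.symm) (h5 ·.symm)
  have h6 := fix_of_comm h
  obtain ⟨e, he, h7⟩ := T.opp hE (hL.nj hs) hL (fun k => n1 (by
    simpa [inv_cj hs, inv_cj h6] using k.cj s⁻¹)) n1 (fun k => n2 (adj_cj.1 (h6.symm ▸ k))) n2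
  have c : ∀ x ∈ E, Commute (e * s) x := fun x hx => (hE.comm he hx).mul_left (h x hx)
  have hs' : (e * s) • N = N := by rw [mul_smul, hs, cj_self (hE.le he)]
  have k : ∀ V, Vx N V q → ¬ Same N E V → (e * s) • V = V := fun V hV n => by
    by_cases a : Adj E V
    · obtain ⟨x, h8, h9, h10⟩ := a.2
      exact T.fix_nb hs' hE hV a (fix_of_comm c) h8 h9 h10 ((comm_cj (c x h9)).symm ▸ h10)
    · obtain ⟨x, hx, rfl⟩ := T.opp hE hL hV n1 n n2 a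
      rw [← mul_smul, (c x hx).eq, mul_smul, mul_smul, h7]
  refine ⟨e⁻¹, inv_mem he, _, T.cent_of_fix hs' fun V hV => ?_, (inv_mul_cancel_left e s).symm⟩
  by_cases n : Same N E V
  · obtain ⟨A, hA, a, -⟩ := T.join hV Same.refl
    obtain ⟨B, hB, b, h8⟩ := T.ex_nb hV hA a
    have f : ∀ {A}, Vx N A q → Adj V A → Adj ((e * s) • V) A := fun hA a =>
      k _ hA (fun k => T.nsame hV a (n.symm.trans k)) ▸ a.cj _
    exact (T.uniq (hV.nj hs') hV hA hB (f hA a) a (f hB b) b).resolve_right h8.symm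
  · exact k V hV n

theorem cent_W (hs : s • N = N) (hE : Vx N E q) (hW : Vx N W q) (h : Adj E W) (h1 : s • E = E)
    (h2 : ∀ z ∈ E, z ∈ W → Commute s z) (h3 : ∀ e ∈ E, s * e * s⁻¹ * e ∈ W) (he : e ∈ E) (h4 : e ∉ W)
    (h5 : Commute s e) : ∀ e ∈ E, Commute s e := fun x hx => by
  have h0 : e ≠ 1 := fun k => h4 (k ▸ one_mem W)
  obtain ⟨U, hU, h6, h7⟩ := T.other hE h0 he
  have h8 := T.fix_nb hs hE hU h6 h1 h0 he h7 ((comm_cj h5).symm ▸ h7)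
  have h9 : W ≠ U := fun k => h4 (k ▸ h7)
  obtain ⟨a, a1, a2, b, b1, b2, rfl⟩ := T.prod hW hE hU h.symm h6.symm h9 hx
  refine (h2 a a2 a1).mul_right (of_cj (by_contra fun k => h9 (T.eq_of_same hW (T.same hE hW hU h h6)
    (fun e => k ?_) (h3 b b2) (mul_mem (mem_of_cj h8 b1) b1))))
  rw [eq_inv_of_mul_eq_one_left e, hE.inv b2]

theorem G2 (hs : s • N = N) (hE : Vx N E q) (hW : Vx N W q) (h : Adj E W) (h1 : s • E = E)
    (h2 : ∀ z ∈ E, z ∈ W → Commute s z) (h3 : ∀ e ∈ E, s * e * s⁻¹ * e ∈ W) :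
    ∃ w ∈ W, ∃ e ∈ E, ∃ c ∈ CN N, s = w * e * c := by
  obtain ⟨e, he, h4⟩ := T.exn hE hW h.1
  obtain ⟨w, hw, h5⟩ := T.surj hE hW h he h4 (mul_mem (mem_of_cj h1 he) he) (h3 e he)
  rw [← (hE.comm (mul_mem (mem_of_cj h1 he) he) he).eq, mul_assoc _ e e, hE.sq e he, mul_one] at h5
  have h6 := T.norm hE hW h (inv_mem hw)
  have hs' : (w⁻¹ * s) • N = N := by rw [mul_smul, hs, cj_self (hW.le (inv_mem hw))]
  have h8 : ∀ x ∈ E, w⁻¹ * s * x * (w⁻¹ * s)⁻¹ * x ∈ W := fun x hx => by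
    have := mul_mem (mul_mem (inv_mem hw) (h3 x hx)) (mem_of_cj (T.norm hW hE h.symm (inv_mem hx)) hw)
    convert this using 1
    group
  obtain ⟨x, hx, c, hc, h7⟩ := T.G1 hs' hE (T.cent_W hs' hE hW h (by rw [mul_smul, h1, h6])
    (fun z h7 h8 => (hW.comm (inv_mem hw) h8).mul_left (h2 z h7 h8)) h8 he h4
    (of_cj (by rw [mul_inv_rev, mul_assoc, mul_assoc, ← mul_assoc e, ← mul_assoc s, ← mul_assoc s, ← h5]; group)))
  exact ⟨w, hw, x, hx, c, hc, by rw [mul_assoc, ← h7, mul_inv_cancel_left]⟩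

theorem triv (hE : Vx N E q) (hW : Vx N W q) (h : Adj E W) (h1 : s • E = E) (h1' : s • W = W)
    (h2 : ∀ z ∈ E, z ∈ W → Commute s z) (h3 : ∀ w ∈ W, Commute (s * s) w) (he : e ∈ E) :
    s * e * s⁻¹ * e ∈ W := by
  obtain ⟨w, hw, h4, h5⟩ : ∃ w ∈ W, w ∉ E ∧ s * w * s⁻¹ * w ∈ E := by
    obtain ⟨w, hw, h4⟩ := T.exn hW hE h.1.symm
    by_cases k : s * w * s⁻¹ * w ∈ E
    · exact ⟨w, hw, h4, k⟩
    refine ⟨_, mul_mem (mem_of_cj h1' hw) hw, k, ?_⟩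
    rw [show s * (s * w * s⁻¹ * w) * s⁻¹ = (s * s * w * (s * s)⁻¹) * (s * w * s⁻¹) by group,
      comm_cj (h3 w hw), ← (hW.comm (mem_of_cj h1' hw) hw).eq, hW.sq _ (mul_mem (mem_of_cj h1' hw) hw)]
    exact one_mem _
  refine (T.cent hE hW h (mul_mem (mem_of_cj h1 he) he) hw ?_).resolve_right h4
  have a := mem_of_cj (T.norm hE hW h hw) he
  have b := comm_cj (h2 _ (mul_mem a he) (by
    simpa [mul_assoc, hE.inv he] using mul_mem hw (mem_of_cj (T.norm hW hE h.symm he) (inv_mem hw))))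
  have c := comm_cj (hE.comm h5 (mem_of_cj (T.norm hE hW h (inv_mem hw)) (mem_of_cj h1 he)))
  have d : w * (s * e * s⁻¹) * w⁻¹ * (s * e * s⁻¹) = w * e * w⁻¹ * e := by
    rw [← b]
    conv_lhs => rw [← hW.inv hw, ← c]
    simp only [hW.inv hw, mul_inv_rev, inv_inv, mul_assoc, ← mul_assoc w w, hW.sq w hw, one_mul,
      inv_mul_cancel_left]
  refine (of_cj ?_).symm
  rw [show w * (s * e * s⁻¹ * e) * w⁻¹ = w * (s * e * s⁻¹) * w⁻¹ * (w * e * w⁻¹) by group,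
    eq_mul_inv_of_mul_eq d, hE.inv (mem_of_cj h1 he), mul_assoc, mul_assoc,
    (hE.comm a (mul_mem he (mul_mem (mem_of_cj h1 he) a))).eq, mul_assoc, mul_assoc _ (w * e * w⁻¹),
    hE.sq _ a, mul_one, (hE.comm he (mem_of_cj h1 he)).eq]

theorem invT (hE : Vx N E q) (hW : Vx N W q) (h : Adj E W) (ht : t ∈ E ⊔ W) (h1 : t * t = 1) :
    t ∈ E ∨ t ∈ W := by
  obtain ⟨e, he, w, hw, rfl⟩ := T.mem_T hE hW h ht
  refine (T.cent hE hW h he hw ?_).symm.imp (mul_mem he) (mul_mem · hw)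
  rw [Commute, SemiconjBy, eq_inv_of_mul_eq_one_left h1, mul_inv_rev, hE.inv he, hW.inv hw]

theorem NS (hE : Vx N E q) (hW : Vx N W q) (h : Adj E W) (h1 : ∀ e ∈ E, e * y * e⁻¹ * y⁻¹ ∈ Y)
    (h2 : ∀ e ∈ W, e * y * e⁻¹ * y⁻¹ ∈ Y) (ht : y ∈ E ⊔ W) (h3 : y ∉ E ⊓ W) : E ⊓ W ≤ Y := by
  intro z hz
  obtain ⟨e, he, w, hw, rfl⟩ := T.mem_T hE hW h ht
  by_cases k : w ∈ E
  · obtain ⟨v, hv, h4⟩ := T.surj hE hW h (mul_mem he k) (fun a => h3 ⟨mul_mem he k, a⟩) hz.1 hz.2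
    have := h2 v hv
    rwa [h4, (hE.comm (mul_mem he k) hz.1).eq, mul_inv_cancel_right] at this
  · obtain ⟨v, hv, h4⟩ := T.surj hW hE h.symm hw k hz.2 hz.1
    have := h1 v hv
    rwa [← mul_assoc, ← (hE.comm he hv).eq, mul_assoc e, mul_assoc e, h4, ← mul_assoc,
      (show Commute (e * w) z from (hE.comm he hz.1).mul_left (hW.comm hw hz.2)).eq,
      mul_inv_cancel_right] at this

theorem flag_inv (hE : Vx N E q) (hW : Vx N W q) (h : Adj E W) (hz : z ∈ N) (h1 : z * z = 1)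
    (h2 : z • E = E) (h3 : z • W = W) : z ∈ E ∨ z ∈ W := by
  by_cases h0 : z = 1
  · exact .inl (h0 ▸ one_mem _)
  obtain ⟨A, B, hA, hB, h4, h5, h6⟩ := T.two z hz h1 h0
  have a : Adj A B := ⟨h4, z, h0, h5, h6⟩
  have k : ∀ {A B}, Vx N A q → Vx N B q → Adj A B → z ∈ A → z ∈ B → Adj E A → z ∈ E ∨ z ∈ W :=
    fun hA hB a h5 h6 b => ((T.fix hA hB hW a.1 h5 h6 h0 h3).resolve_left fun c =>
      T.nsame hW c (T.same hE hW hA h b)) |> fun c =>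
      (T.uniq hE hB hW hA h c.symm b a.symm).imp (· ▸ h6) (· ▸ h5)
  exact (T.fix hA hB hE h4 h5 h6 h0 h2).elim (k hA hB a h5 h6) (k hB hA a.symm h6 h5)

theorem fix4 (hE : Vx N E q) (hW : Vx N W q) (h : Adj E W) (hy : y ∈ E ⊔ W) (h1 : y * y ≠ 1)
    (hU : Vx N U q) (h2 : y • U = U) : U = E ∨ U = W := by
  obtain ⟨e, he, w, hw, rfl⟩ := T.mem_T hE hW h hy
  by_contra! k
  obtain h3 | h3 := T.fix hE hW hU h.1 (by
    simpa [mul_assoc, hW.inv hw] using mul_mem he (mem_of_cj (T.norm hE hW h hw) he)) (by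
    simpa [mul_assoc, hE.inv he] using mul_mem (mem_of_cj (T.norm hW hE h.symm he) hw) hw) h1
    (by rw [mul_smul, h2, h2])
  · exact h1 (hE.sq _ (mul_mem he (T.stab hE hW hU h h3.symm k.2 hw (by
      rw [← inv_mul_cancel_left e w, mul_smul, h2, T.norm hU hE h3 (inv_mem he)]))))
  · exact h1 (hW.sq _ (mul_mem (T.stab hW hE hU h.symm h3.symm k.1 he (by
      rw [← h2, ← mul_smul, ← mul_assoc, hE.sq e he, one_mul, h2, T.norm hU hW h3 hw])) hw))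

theorem tricho (hE : Vx N E q) (hW : Vx N W q) (h : Adj E W) (h1 : E ≤ H) (h2 : W ≤ H)
    (h3 : ¬ N ≤ H) : (∃ E, Vx N E q ∧ ∀ U, Vx N U q → (U ≤ H ↔ U = E ∨ Adj E U)) ∨
      ∀ U, Vx N U q → (U ≤ H ↔ U = E ∨ U = W) := by
  have cj : ∀ {w U}, w ∈ H → U ≤ H → w • U ≤ H := fun hw hU => (cj_mono hU).trans (cj_self hw).le
  have star : ∀ {E W U}, Vx N E q → Vx N W q → Vx N U q → Adj E W → Adj E U → U ≠ W → W ≤ H → U ≤ H →
      ∀ V, Vx N V q → Adj E V → V ≤ H := fun {_ W _} hE hW hU a b c d e V hV f => by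
    by_cases k : V = W
    · exact k ▸ d
    obtain ⟨w, hw, rfl⟩ := T.nbtr hE hW hU hV a b f c k
    exact cj (d hw) e
  have jn : ∀ {E U}, Vx N E q → Same N E U → E ≠ U → E ≤ H → U ≤ H →
      ∃ W, Vx N W q ∧ Adj E W ∧ Adj U W ∧ W ≤ H := fun hE s n a b => by
    obtain ⟨W, hW, c, d⟩ := T.join hE s
    refine ⟨W, hW, c, d, fun w hw => ?_⟩
    obtain ⟨x, hx, -, y, hy, -, rfl⟩ := T.prod hE hW (s.vx hE) c d n hw
    exact mul_mem (a hx) (b hy)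
  have main : ∀ {E}, Vx N E q → E ≤ H → (∀ V, Vx N V q → Adj E V → V ≤ H) →
      ∃ E, Vx N E q ∧ ∀ U, Vx N U q → (U ≤ H ↔ U = E ∨ Adj E U) := fun {E} hE a b => by
    refine ⟨E, hE, fun U hU => ⟨fun c => by_contra fun d => h3 (T.gen ?_), ?_⟩⟩
    swap
    · rintro (rfl | d); exacts [a, b U hU d]
    obtain ⟨A, hA, d1, -⟩ := T.join hE Same.refl
    obtain ⟨V, s, n, c⟩ : ∃ V, Same N E V ∧ E ≠ V ∧ V ≤ H := by
      obtain s | s := T.same_or hE hA hU d1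
      · exact ⟨U, s, fun k => d (.inl k.symm), c⟩
      · obtain ⟨V, hV, e, f, g⟩ := jn hA s (fun k => d (.inr (k ▸ d1))) (b A hA d1) c
        exact ⟨V, T.same hA hE hV d1.symm e, fun k => d (.inr (k ▸ f.symm)), g⟩
    obtain ⟨B, hB, e, f, g⟩ := jn hE s n a c
    have g1 := star hB hE (s.vx hE) e.symm f.symm n.symm a c
    have g2 : ∀ V, Same N E V → V ≤ H := fun V s => by
      obtain ⟨D, hD, i, j⟩ := T.join hE s
      obtain ⟨C, hC, k, l, m⟩ := T.third hE B D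
      obtain ⟨w, hw, rfl⟩ := T.nbtr hE hC hB hD k e i l.symm m.symm
      have hw' := inv_mem (hC.le hw)
      simpa using cj (b C hC k hw) (g1 _ ((s.vx hE).nj (cj_self hw')) (by simpa using (j.cj w⁻¹).symm))
    intro U hU
    obtain s | s := T.same_or hE hA hU d1
    · exact g2 U s
    obtain ⟨C, hC, i, j⟩ := T.join hA s
    obtain ⟨D, hD, k, l⟩ := T.ex_nb hU hC j
    intro u hu
    obtain ⟨x, hx, -, y, hy, -, rfl⟩ := T.prod hC hU hD j.symm k.symm l.symm hu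
    have s1 := T.same hA hE hC d1.symm i
    exact mul_mem (g2 C s1 hx) (g2 D (s1.trans (T.same hU hC hD j k)) hy)
  have k : ∀ {E W U}, Vx N E q → Vx N W q → Adj E W → E ≤ H → W ≤ H → Same N E U → E ≠ U → U ≤ H →
      ∃ E, Vx N E q ∧ ∀ U, Vx N U q → (U ≤ H ↔ U = E ∨ Adj E U) := fun hE hW a b c s n d => by
    obtain ⟨V, hV, e, f, g⟩ := jn hE s n b d
    exact main hV g (star hV hE (s.vx hE) e.symm f.symm n.symm b d)
  refine or_iff_not_imp_left.2 fun n U hU => ⟨fun a => by_contra fun b => n ?_, ?_⟩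
  · obtain s | s := T.same_or hE hW hU h
    exacts [k hE hW h h1 h2 s (fun e => b (.inl e.symm)) a, k hW hE h.symm h2 h1 s (fun e => b (.inr e.symm)) a]
  · rintro (rfl | rfl) <;> assumption

end Tri

end CfsgLib.L3N
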