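import Mathlib
import Cfsg.Agent.Lib.L3N.Loc

/-!
Doubly transitive groups of even degree with `L₃(q)` normal in a point stabilizer: the setting.
-/

set_option autoImplicit false
set_option linter.unusedSectionVars false

namespace CfsgLib.L3N

open MulAction

variable {G Ω : Type*} [Group G] [MulAction G Ω] {E W U E' W' : Subgroup G} {q : ℕ} {e g n s t u : G}
  {a b c d : Ω} {Nf : Ω → Subgroup G}

variable (q Nf) in
/-- The setting. -/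
structure Gl : Prop where
  tri : ∀ c, Tri q (Nf c)
  cj : ∀ (g : G) c, Nf (g • c) = g • Nf c
  le : ∀ {c n}, n ∈ Nf c → n • c = c
  tr2 : ∀ {a b c d : Ω}, a ≠ b → c ≠ d → ∃ g : G, g • a = c ∧ g • b = d
  even : Even (Nat.card Ω)
  faith : ∀ g : G, (∀ c : Ω, g • c = c) → g = 1

theorem cj_stab : g • E ≤ stabilizer G (g • b) ↔ E ≤ stabilizer G b :=
  ⟨fun h e he => by simpa [mul_smul] using h (cj_mem.2 he),
    fun h => cj_le fun e he => by simpa [mul_smul] using h he⟩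

/-- The vertices at `a` fixing `b` form the star of `E`. -/
def IsP (q : ℕ) (Nf : Ω → Subgroup G) (a b : Ω) (E : Subgroup G) : Prop :=
  Vx (Nf a) E q ∧ ∀ U, Vx (Nf a) U q → (U ≤ stabilizer G b ↔ U = E ∨ Adj E U)

/-- The vertices at `a` fixing `b` form a flag. -/
structure IsB (q : ℕ) (Nf : Ω → Subgroup G) (a b : Ω) (E W : Subgroup G) : Prop where
  l : Vx (Nf a) E q
  r : Vx (Nf a) W q
  adj : Adj E W
  iff : ∀ U, Vx (Nf a) U q → (U ≤ stabilizer G b ↔ U = E ∨ U = W)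

theorem IsB.symm (h : IsB q Nf a b E W) : IsB q Nf a b W E :=
  ⟨h.r, h.l, h.adj.symm, fun U hU => (h.iff U hU).trans or_comm⟩

variable [Finite G] [Finite Ω]

namespace Gl

variable (Γ : Gl q Nf)
include Γ

theorem nj (h : g • c = c) : g • Nf c = Nf c := by rw [← Γ.cj, h]

theorem vx (h : Vx (Nf c) E q) (g : G) : Vx (Nf (g • c)) (g • E) q := Γ.cj g c ▸ h.cj g

theorem vx' (h : Vx (Nf (g • c)) E q) : Vx (Nf c) (g⁻¹ • E) q := by simpa using Γ.vx h g⁻¹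

theorem mem (h : n ∈ Nf c) (g : G) : g * n * g⁻¹ ∈ Nf (g • c) := Γ.cj g c ▸ cj_mem.2 h

theorem cn (h : n ∈ CN (Nf c)) (g : G) : g * n * g⁻¹ ∈ CN (Nf (g • c)) := Γ.cj g c ▸ CN.cj h g

theorem mv (h : a ≠ b) : ¬ Nf a ≤ stabilizer G b := fun k => by
  obtain ⟨E, W, hE, -, -, e, h0, h1, -⟩ := (Γ.tri a).ex
  refine h0 (Γ.faith e fun c => ?_)
  by_cases h2 : a = c
  · exact h2 ▸ Γ.le (hE.le h1)
  obtain ⟨g, h3, rfl⟩ := Γ.tr2 h h2
  exact cj_stab.2 k ((Γ.nj h3).ge (hE.le h1))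

theorem mv' (h : a ≠ b) : ∃ n ∈ Nf a, n • b ≠ b := SetLike.not_le_iff_exists.1 (Γ.mv h)

theorem ne (hn : n ∈ Nf a) (h : a ≠ b) : a ≠ n • b := fun e => h (smul_left_cancel n (by rw [Γ.le hn, e]))

theorem cfix (h : s ∈ CN (Nf c)) : s • c = c := by_contra fun k =>
  Γ.mv (Ne.symm k) fun _ hn => Γ.le (by rwa [Γ.cj, CN.fix h le_rfl])

theorem pT (hE : Vx (Nf a) E q) (hW : Vx (Nf a) W q) (h : Adj E W) : IsPGroup 2 (E ⊔ W :) :=
  let ⟨n, _, e⟩ := (Γ.tri a).pow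
  IsPGroup.of_card (n := n * 3) (by rw [(Γ.tri a).card_T hE hW h, e, pow_mul])

theorem fix2 (hE : Vx (Nf a) E q) (hW : Vx (Nf a) W q) (h : Adj E W) :
    ∃ b, a ≠ b ∧ E ≤ stabilizer G b ∧ W ≤ stabilizer G b := by
  obtain ⟨b, h1, h2⟩ := (Γ.pT hE hW h).exists_fixed_point_of_prime_dvd_card_of_fixed_point Ω
    Γ.even.two_dvd (a := a) fun x => Γ.le (sup_le hE.le hW.le x.2)
  exact ⟨b, h2, fun x hx => h1 ⟨x, Subgroup.mem_sup_left hx⟩, fun x hx => h1 ⟨x, Subgroup.mem_sup_right hx⟩⟩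

theorem isP_cj (h : IsP q Nf a b E) (g : G) : IsP q Nf (g • a) (g • b) (g • E) :=
  ⟨Γ.vx h.1 g, fun U hU => by
    rw [← smul_inv_smul g U, cj_stab, h.2 _ (Γ.vx' hU), adj_cj, smul_left_cancel_iff]⟩

theorem isB_cj (h : IsB q Nf a b E W) (g : G) : IsB q Nf (g • a) (g • b) (g • E) (g • W) :=
  ⟨Γ.vx h.l g, Γ.vx h.r g, h.adj.cj g, fun U hU => by
    rw [← smul_inv_smul g U, cj_stab, h.iff _ (Γ.vx' hU), smul_left_cancel_iff, smul_left_cancel_iff]⟩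

theorem cases (a : Ω) : (∀ a b, a ≠ b → ∃ E, IsP q Nf a b E) ∨ ∀ a b, a ≠ b → ∃ E W, IsB q Nf a b E W := by
  obtain ⟨E, W, hE, hW, h⟩ := (Γ.tri a).ex
  obtain ⟨b, h1, h2, h3⟩ := Γ.fix2 hE hW h
  refine ((Γ.tri a).tricho hE hW h h2 h3 (Γ.mv h1)).imp (fun ⟨E, k⟩ c d h4 => ?_) fun k c d h4 => ?_
  all_goals obtain ⟨g, rfl, rfl⟩ := Γ.tr2 h1 h4
  exacts [⟨_, _, Γ.isB_cj ⟨hE, hW, h, k⟩ g⟩, ⟨_, Γ.isP_cj k g⟩]

theorem geo (h : a ≠ b) (h0 : u ≠ 1) (h1 : u ∈ Nf a) (h2 : u ∈ Nf b) (h3 : c ≠ d)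
    (h4 : s ∈ CN (Nf c)) (h5 : s ∈ CN (Nf d)) : s = 1 := by
  let X : Ω → Ω → Subgroup G := fun c d => CN (Nf c) ⊓ CN (Nf d)
  have le : ∀ (g : G) c d, g • X c d ≤ X (g • c) (g • d) := fun g c d => cj_le fun x hx =>
    ⟨Γ.cn hx.1 g, Γ.cn hx.2 g⟩
  have eq : ∀ {c d e f}, c ≠ d → e ≠ f → X c d ≤ CN (Nf e) → X c d ≤ CN (Nf f) → X c d = X e f :=
    fun {c d e f} h h' k k' => by
      obtain ⟨g, rfl, rfl⟩ := Γ.tr2 h' h
      exact Subgroup.eq_of_le_of_card_ge (le_inf k k') (card_cj.ge.trans (Subgroup.card_le_of_le (le g e f)))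
  have mv : ∀ {n c d e}, n • X c d = X c d → X c d ≤ CN (Nf e) → X c d ≤ CN (Nf (n • e)) :=
    fun h k => h ▸ cj_le fun x hx => Γ.cn (k hx) _
  have nx : ∀ {n c d e}, n ∈ Nf e → X c d ≤ CN (Nf e) → n • X c d = X c d := fun h k =>
    fix_of_comm fun x hx => CN.comm (k hx) h
  obtain ⟨g, rfl, rfl⟩ := Γ.tr2 h h3
  by_contra h6
  obtain ⟨d, hd⟩ : ∃ d, ¬ X a b ≤ CN (Nf d) := not_forall.1 fun k => h6 (by
    simpa only [conj_eq_one_iff] using Γ.faith (g⁻¹ * s * g⁻¹⁻¹) fun c => Γ.cfix (k c ⟨by simpa using Γ.cn h4 g⁻¹,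
      by simpa using Γ.cn h5 g⁻¹⟩))
  have k : ∀ e, ¬ X a b ≤ CN (Nf e) → u • e = e := fun e he => by_contra fun k => by
    have a1 : a ≠ e := fun k => he (k ▸ inf_le_left)
    have a2 : b ≠ e := fun k => he (k ▸ inf_le_right)
    have e1 := eq a1 k (mv (nx h1 inf_le_left) inf_le_right) inf_le_right
    have e2 := eq a2 k (mv (nx h2 inf_le_left) inf_le_right) inf_le_right
    exact he ((eq a1 h inf_le_left (e1 ▸ e2 ▸ inf_le_left)) ▸ inf_le_right)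
  refine h0 (Γ.faith u fun e => by_contra fun k' => ?_)
  have he := not_not.1 (mt (k e) k')
  have a1 : e ≠ d := fun k => hd (k ▸ he)
  obtain ⟨n, hn, a2⟩ := Γ.mv' a1
  have a3 := mv (nx hn inf_le_left) (inf_le_right : X e d ≤ _)
  have e1 := eq a1 a2 a3 inf_le_right
  have a4 : u • n • d = n • d := k _ fun k' => hd (eq h (Γ.ne hn a1) he k' ▸
    eq a1 (Γ.ne hn a1) inf_le_left a3 ▸ inf_le_right)
  have a5 : u • X e d = X e d := e1 ▸ cj_eq fun x hx => by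
    simpa only [a4, k d hd] using le u _ _ (cj_mem.2 hx)
  exact hd (eq h k' (mv (nx h1 inf_le_left) he) he ▸ eq a1 k' (mv a5 inf_le_left) inf_le_left ▸ inf_le_right)

end Gl

end CfsgLib.L3N
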