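import Mathlib
import Cfsg.Agent.Lib.L3N.Glob

/-!
The parabolic case: lines and planes.
-/

set_option autoImplicit false
set_option linter.unusedSectionVars false

namespace CfsgLib.L3N

open MulAction

variable {G Ω : Type*} [Group G] [MulAction G Ω] {E W U D Y W' : Subgroup G} {q : ℕ} {e g n s t u w x : G}
  {a b c d : Ω} {Nf : Ω → Subgroup G} {L : Ω → Ω → Subgroup G}

theorem comm_of_triv (h1 : s • E = E) (h2 : e • Y = Y) (hs : s ∈ Y) (he : e ∈ E)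
    (h : ∀ x ∈ E, x ∈ Y → x = 1) : Commute s e :=
  of_cj (mul_inv_eq_one.1 (h _ (mul_mem (mem_of_cj h1 he) (inv_mem he)) (by
    simpa [mul_assoc] using mul_mem hs (mem_of_cj h2 (inv_mem hs)))))

variable (q Nf L) in
/-- The parabolic case. -/
structure PC : Prop extends Gl q Nf where
  isP : ∀ {a b}, a ≠ b → IsP q Nf a b (L a b)

variable [Finite G] [Finite Ω]

theorem Tri.mem_of_cent {N : Subgroup G} (T : Tri q N) (hE : Vx N E q) (hW : Vx N W q) (h : Adj E W)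
    (hw : w ∈ W) (h1 : ∀ e ∈ E, Commute e w) : w ∈ E :=
  let ⟨e, h2, h3⟩ := T.exn hE hW h.1
  (T.cent hE hW h h2 hw (h1 e h2)).resolve_left h3

theorem Tri.sq_of {N : Subgroup G} (T : Tri q N) (ht : t ∈ N) (hc : s ∈ CN N) {k : ℕ}
    (h : (t * s) ^ k = 1) : t ^ k = 1 := by
  rw [(CN.comm hc ht).mul_pow] at h
  exact T.nc (pow_mem ht k) (eq_inv_of_mul_eq_one_left h ▸ inv_mem (pow_mem hc k))

namespace PC

variable (P : PC q Nf L)
include P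

theorem lv (h : a ≠ b) : Vx (Nf a) (L a b) q := (P.isP h).1

theorem iff (h : a ≠ b) (hU : Vx (Nf a) U q) : U ≤ stabilizer G b ↔ U = L a b ∨ Adj (L a b) U :=
  (P.isP h).2 U hU

theorem fr (h : a ≠ b) : L a b ≤ stabilizer G b := (P.iff h (P.lv h)).2 (.inl rfl)

theorem vl (hU : Vx (Nf a) U q) : U ≤ stabilizer G a := fun _ hu => P.le (hU.le hu)

theorem nb_le (h : a ≠ b) (hU : Vx (Nf a) U q) (h1 : Adj (L a b) U) : U ≤ stabilizer G b :=
  (P.iff h hU).2 (.inr h1)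

theorem HE_fr (h : a ≠ b) : HE (Nf a) (L a b) q ≤ stabilizer G b := HE_le fun _ => P.nb_le h

theorem lcj (h : a ≠ b) (g : G) : L (g • a) (g • b) = g • L a b := by
  have h1 := P.isP_cj (P.isP h) g
  have h2 : g • a ≠ g • b := by simpa using h
  refine ((P.iff h2 h1.1).1 ((h1.2 _ h1.1).2 (.inl rfl))).elim Eq.symm fun k => ?_
  obtain ⟨U, hU, h3, h4⟩ := (P.tri _).ex_nb h1.1 (P.lv h2) k.symm
  exact absurd ((P.tri _).same h1.1 (P.lv h2) hU k.symm h3) ((P.tri _).nsame (P.lv h2)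
    (((P.iff h2 hU).1 ((h1.2 U hU).2 (.inr h3))).resolve_left h4))

theorem lfix (h : a ≠ b) (h1 : g • a = a) (h2 : g • b = b) : g • L a b = L a b := by
  rw [← P.lcj h, h1, h2]

theorem meet (h : a ≠ b) (hU : Vx (Nf a) U q) (h1 : U ≤ stabilizer G b) :
    ∃ x, x ≠ 1 ∧ x ∈ L a b ∧ x ∈ U := by
  obtain rfl | k := (P.iff h hU).1 h1
  · obtain ⟨W, -, ⟨-, x, h2, h3, -⟩, -⟩ := (P.tri a).join hU Same.refl
    exact ⟨x, h2, h3, h3⟩
  · exact k.2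

theorem symm (h : a ≠ b) : L a b = L b a := by
  by_contra h0
  have k : ∀ {c d}, c ≠ d → L d c ≤ CN (Nf c) := fun {c d} h1 s hs => by
    have f : ∀ k ∈ HE (Nf c) (L c d) q, k • L d c = L d c := fun k hk =>
      P.lfix h1.symm (P.HE_fr h1 hk) (P.le (HE_le_N hk))
    have I : ∀ x ∈ L c d, x ∈ L d c → x = 1 := fun x h2 h3 => by_contra fun h4 => h0 (by
      obtain ⟨g, rfl, rfl⟩ := P.tr2 h1 h
      rw [P.lcj h1, P.lcj h1.symm, Subgroup.eq_of_le_of_card_ge (H := L c d) (fun y hy => ?_)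
        ((P.lv h1.symm).card.trans (P.lv h1).card.symm).le]
      by_cases h5 : y = 1
      · exact h5 ▸ one_mem _
      obtain ⟨k, hk, rfl⟩ := (P.tri c).tr1 (P.lv h1) h2 hy h4 h5
      exact mem_of_cj (f k hk) h3)
    have h2 := P.fr h1.symm hs
    obtain ⟨e, he, x, hx, rfl⟩ := (P.tri c).G1 (P.nj h2) (P.lv h1) fun e he => comm_of_triv
      (P.lfix h1 h2 (P.vl (P.lv h1.symm) hs)) (P.lfix h1.symm (P.fr h1 he) (P.vl (P.lv h1) he)) hs he I
    rw [(P.tri c).eq_one_of_HE (P.lv h1) he fun k hk => of_cj (mul_inv_eq_one.1 (I _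
      (mul_mem (mem_of_cj ((P.tri c).HE_fix (P.lv h1) hk) he) (inv_mem he)) ?_)), one_mul]
    · exact hx
    have := mul_mem (mem_of_cj (f k hk) hs) (inv_mem hs)
    nth_rw 2 [← comm_cj (CN.comm hx (HE_le_N hk))] at this
    convert this using 1
    group
  obtain ⟨n, hn, h1⟩ := P.mv' h
  have h2 : L (n • b) a = L b a := by
    rw [← fix_of_comm fun x hx => CN.comm (k h hx) hn, ← P.lcj h.symm, P.le hn]
  have h3 := P.lv (P.ne hn h).symm
  obtain ⟨x, h4, h5, h6⟩ := P.meet h1.symm (P.lv h.symm) (h2 ▸ P.vl h3)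
  exact h4 ((P.tri _).nc (h3.le (h2 ▸ h6)) (k h1 h5))

theorem lv' (h : a ≠ b) : Vx (Nf b) (L a b) q := P.symm h ▸ P.lv h.symm

theorem X1 (h : a ≠ b) (h1 : s ∈ CN (Nf a)) (h2 : s ∈ CN (Nf b)) : s = 1 :=
  let ⟨_, h3, h4, _⟩ := P.meet h (P.lv h) (P.fr h)
  P.geo h h3 ((P.lv h).le h4) ((P.lv' h).le h4) h h1 h2

theorem aux (h : a ≠ b) (hE : L a b = E) (hW : Vx (Nf a) W q) (hW' : Vx (Nf b) W' q) (h1 : Adj E W)
    (h2 : Adj E W') (h0 : e ≠ 1) (h3 : e ∈ E) (h4 : e ∈ W) (h5 : e ∈ W') (hw : w ∈ W') :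
    ∃ t ∈ W, ∃ c ∈ CN (Nf a), w = t * c := by
  subst hE
  have v := P.lv' h
  have k : L a b ⊓ W = L a b ⊓ W' := by
    refine (Subgroup.eq_of_le_of_card_ge (fun x hx => by_contra fun h6 => h6 ?_) ?_).symm
    swap
    · rw [(P.tri a).card_inf (P.lv h) hW h1, (P.tri b).card_inf v hW' h2]
    rwa [Subgroup.eq_of_le_of_card_ge (H := L a b ⊓ W) (K := L a b ⊓ W') (fun z hz => ⟨hz.1, ?_⟩)
      (by rw [(P.tri a).card_inf (P.lv h) hW h1, (P.tri b).card_inf v hW' h2])]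
    obtain ⟨w, hw, h7⟩ := (P.tri a).surj (P.lv h) hW h1 hx.1 (fun k => h6 ⟨hx.1, k⟩) hz.1 hz.2
    exact (mul_mem_cancel_left (H := W') hx.2).1 (h7 ▸ mem_of_cj ((P.tri b).fix_nb (P.nj (P.nb_le h hW h1 hw)) v hW' h2
      ((P.tri a).norm (P.lv h) hW h1 hw) h0 h3 h5 ((comm_cj (hW.comm hw h4)).symm ▸ h5)) hx.2)
  have h6 := (P.tri b).norm v hW' h2 hw
  obtain ⟨t, ht, x, hx, c, hc, rfl⟩ := (P.tri a).G2 (P.nj (P.nb_le h.symm hW' (P.symm h ▸ h2) hw))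
    (P.lv h) hW h1 h6 (fun z h7 h8 => hW'.comm hw (k.le ⟨h7, h8⟩).2) fun y hy =>
      (k.ge ⟨mul_mem (mem_of_cj h6 hy) hy, by
        have := mul_mem hw (mem_of_cj ((P.tri b).norm hW' v h2.symm hy) (inv_mem hw))
        simpa [mul_assoc, v.inv hy] using this⟩).2
  have h7 := mul_mem (Subgroup.mem_sup_right (S := L a b) ht) (Subgroup.mem_sup_left hx)
  obtain h8 | h8 := (P.tri a).invT (P.lv h) hW h1 h7 (by
    simpa only [sq] using (P.tri a).sq_of (sup_le (P.lv h).le hW.le h7) hc ((sq _).trans (hW'.sq _ hw)))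
  · exact ⟨_, (k.ge ⟨(P.tri b).mem_of_cent v hW' h2 hw fun y hy => ((P.lv h).comm hy h8).mul_right
      (CN.comm hc ((P.lv h).le hy)), hw⟩).2, 1, one_mem _, (mul_one _).symm⟩
  · exact ⟨_, h8, c, hc, rfl⟩

theorem nb (h : a ≠ b) (hW' : Vx (Nf b) W' q) (h2 : Adj (L a b) W') : Vx (Nf a) W' q := by
  obtain ⟨e, h0, h3, h5⟩ := h2.2
  obtain ⟨W, hW, h1, h4⟩ := (P.tri a).other (P.lv h) h0 h3
  rwa [Subgroup.eq_of_le_of_card_ge (H := W') (fun w hw => ?_) (hW.card.trans hW'.card.symm).le]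
  obtain ⟨t, ht, c, hc, rfl⟩ := P.aux h rfl hW hW' h1 h2 h0 h3 h4 h5 hw
  obtain ⟨w, hw', c', hc', rfl⟩ := P.aux h.symm (P.symm h).symm hW' hW h2 h1 h0 h3 h5 h4 ht
  have h6 : c' * c ∈ W' := by rwa [mul_assoc, mul_mem_cancel_left hw'] at hw
  have h7 := (P.tri b).mem_of_cent (P.lv' h) hW' h2 h6 fun y hy =>
    (CN.comm hc' ((P.lv' h).le hy)).mul_right (CN.comm hc ((P.lv h).le hy))
  have h8 := (P.tri a).eq_one_of_HE (P.lv h) h7 fun k hk => of_cj (mul_inv_eq_one.1 ((P.tri b).nc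
    ((P.lv' h).le (mul_mem (mem_of_cj ((P.tri a).HE_fix (P.lv h) hk) h7) (inv_mem h7))) (by
      have := P.cn hc' k
      rw [show k • b = b from P.HE_fr h hk] at this
      nth_rw 2 [← comm_cj (CN.comm hc (HE_le_N hk))]
      convert mul_mem this (inv_mem hc') using 1
      group)))
  rwa [P.X1 h hc (eq_inv_of_mul_eq_one_right h8 ▸ inv_mem hc'), mul_one]

theorem HE_le' (h : a ≠ b) : HE (Nf a) (L a b) q ≤ Nf b :=
  HE_le fun _ h1 h2 => (P.nb h.symm h1 (P.symm h ▸ h2)).le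

theorem card_Ln (h : a ≠ b) (h' : c ≠ d) :
    {x | c ≠ x ∧ L c x = L c d}.ncard = {x | a ≠ x ∧ L a x = L a b}.ncard := by
  obtain ⟨g, rfl, rfl⟩ := P.tr2 h h'
  symm
  refine Set.ncard_congr (fun x _ => g • x) (fun x hx => ⟨by simpa using hx.1, ?_⟩)
    (fun _ _ _ _ => smul_left_cancel g) fun y hy => ⟨g⁻¹ • y, ?_, smul_inv_smul g y⟩
  · rw [P.lcj hx.1, P.lcj h, hx.2]
  · have h1 : a ≠ g⁻¹ • y := fun k => hy.1 (by rw [k, smul_inv_smul])
    exact ⟨h1, smul_left_cancel g (by rw [← P.lcj h1, smul_inv_smul, hy.2, P.lcj h])⟩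

theorem par (h : a ≠ b) (h' : a ≠ d) : ¬ Adj (L a b) (L a d) := fun k => by
  have h1 := (P.pT (P.lv h) (P.lv h') k).card_modEq_card_fixedPoints Ω
  rw [show fixedPoints (L a b ⊔ L a d :) Ω = insert a ({x | a ≠ x ∧ L a x = L a b} ∪
      {x | a ≠ x ∧ L a x = L a d}) from Set.ext fun c => ⟨fun hc => or_iff_not_imp_left.2 fun h2 => ?_, ?_⟩,
    Nat.card_coe_set_eq, Set.ncard_insert_of_notMem (by simp), Set.ncard_union_eq (Set.disjoint_left.2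
      fun x h2 h3 => k.1 (h2.2.symm.trans h3.2)), P.card_Ln h h'] at h1
  · have := P.even.two_dvd
    unfold Nat.ModEq at h1
    omega
  · replace h2 := Ne.symm h2
    obtain h3 | h3 := (P.iff h2 (P.lv h)).1 fun x hx => hc ⟨x, Subgroup.mem_sup_left hx⟩
    · exact .inl ⟨h2, h3.symm⟩
    exact .inr ⟨h2, (((P.iff h2 (P.lv h')).1 fun x hx => hc ⟨x, Subgroup.mem_sup_right hx⟩).resolve_right
      fun h4 => (P.tri a).nsame (P.lv h) k ((P.tri a).same (P.lv h2) (P.lv h) (P.lv h') h3 h4)).symm⟩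
  · rintro (rfl | ⟨h2, h3⟩ | ⟨h2, h3⟩) x
    exacts [sup_le (P.vl (P.lv h)) (P.vl (P.lv h')) x.2,
      sup_le (h3 ▸ P.fr h2) (P.nb_le h2 (P.lv h') (h3 ▸ k)) x.2,
      sup_le (P.nb_le h2 (P.lv h) (h3 ▸ k.symm)) (h3 ▸ P.fr h2) x.2]

theorem of_same (h : a ≠ b) (h1 : Same (Nf a) (L a b) U) : ∃ c, a ≠ c ∧ L a c = U :=
  let ⟨n, hn, h2⟩ := h1
  ⟨n • b, P.ne hn h, by rw [← h2, ← P.lcj h, P.le hn]⟩

theorem same (h : a ≠ b) (h' : a ≠ c) : Same (Nf a) (L a b) (L a c) := by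
  obtain ⟨W, hW, h1, -⟩ := (P.tri a).join (P.lv h) Same.refl
  refine ((P.tri a).same_or (P.lv h) hW (P.lv h') h1).resolve_right fun k => ?_
  obtain ⟨d, h2, rfl⟩ := P.of_same h' k.symm
  exact P.par h h2 h1

theorem eq_of_fix (h : a ≠ b) (h' : a ≠ c) (h1 : L a b ≤ stabilizer G c) : L a c = L a b :=
  (((P.iff h' (P.lv h)).1 h1).resolve_right (P.par h' h)).symm

theorem on (h : a ≠ b) (h1 : L a b ≤ stabilizer G c) : ∃ x, c ≠ x ∧ L c x = L a b := by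
  by_cases h2 : a = c
  · exact ⟨b, h2 ▸ h, h2 ▸ rfl⟩
  · exact ⟨a, Ne.symm h2, (P.symm h2).symm.trans (P.eq_of_fix h h2 h1)⟩

theorem line (h : a ≠ b) (h' : c ≠ d) (h1 : L a b ≤ stabilizer G c) (h2 : L a b ≤ stabilizer G d) :
    L c d = L a b := by
  obtain ⟨x, h3, h4⟩ := P.on h h1
  rw [← h4] at h2 ⊢
  exact P.eq_of_fix h3 h' h2

theorem eq_of_meet (h : a ≠ b) (h' : a ≠ c) (h0 : e ≠ 1) (h1 : e ∈ L a b) (h2 : e ∈ L a c) :
    L a b = L a c := (P.tri a).eq_of_same (P.lv h) (P.same h h') h0 h1 h2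

end PC

variable (q Nf L a W) in
/-- The groups of the planes through `a`. -/
def Pl : Prop := Vx (Nf a) W q ∧ ∃ b, a ≠ b ∧ Adj (L a b) W

namespace PC

variable (P : PC q Nf L)
include P

theorem pl_adj (hW : Pl W q a Nf L) (h : a ≠ c) (h1 : W ≤ stabilizer G c) : Adj (L a c) W :=
  ((P.iff h hW.1).1 h1).resolve_left fun k => let ⟨_, h2, h3⟩ := hW.2; P.par h2 h (k ▸ h3)

theorem pl_mv (hW : Pl W q a Nf L) (h1 : W ≤ stabilizer G c) : Pl W q c Nf L := by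
  by_cases h : a = c
  · exact h ▸ hW
  have h2 := P.symm h ▸ P.pl_adj hW h h1
  exact ⟨P.nb (Ne.symm h) hW.1 h2, a, Ne.symm h, h2⟩

theorem pl_line (hW : Pl W q a Nf L) (h1 : W ≤ stabilizer G b) (h : a ≠ b)
    (h2 : L a b ≤ stabilizer G c) : W ≤ stabilizer G c := by
  by_cases h3 : a = c
  · exact h3 ▸ P.vl hW.1
  · exact P.nb_le h3 hW.1 (P.eq_of_fix h h3 h2 ▸ P.pl_adj hW h h1)

theorem pl_ex (h : a ≠ b) (h' : a ≠ c) :
    ∃ W, Pl W q a Nf L ∧ W ≤ stabilizer G b ∧ W ≤ stabilizer G c :=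
  let ⟨W, hW, h1, h2⟩ := (P.tri a).join (P.lv h) (P.same h h')
  ⟨W, ⟨hW, b, h, h1⟩, P.nb_le h hW h1, P.nb_le h' hW h2⟩

theorem pl_uniq (hW : Pl W q a Nf L) (hW' : Pl W' q a Nf L) (h : a ≠ b) (h' : a ≠ c)
    (h1 : W ≤ stabilizer G b) (h2 : W ≤ stabilizer G c) (h3 : W' ≤ stabilizer G b)
    (h4 : W' ≤ stabilizer G c) : L a b = L a c ∨ W = W' :=
  (P.tri a).uniq (P.lv h) (P.lv h') hW.1 hW'.1 (P.pl_adj hW h h1) (P.pl_adj hW h' h2)
    (P.pl_adj hW' h h3) (P.pl_adj hW' h' h4)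

theorem pl_cj (hW : Pl W q a Nf L) (g : G) : Pl (g • W) q (g • a) Nf L :=
  let ⟨b, h1, h2⟩ := hW.2
  ⟨P.vx hW.1 g, g • b, by simpa using h1, P.lcj h1 g ▸ h2.cj g⟩

theorem adj_of_fix (hW : Pl W q a Nf L) (h0 : e ≠ 1) (he : e ∈ W) (h : a ≠ c)
    (h1 : e • L a c = L a c) : W ≤ stabilizer G c := by
  obtain ⟨D, hD, h2, h3⟩ := (P.tri a).other hW.1 h0 he
  obtain ⟨b, h4, h5⟩ := hW.2
  exact P.nb_le h hW.1 (((P.tri a).fix hW.1 hD (P.lv h) h2.1 he h3 h0 h1).resolve_right fun k =>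
    (P.tri a).nsame (P.lv h) k ((P.same h h4).trans ((P.tri a).same hW.1 (P.lv h4) hD h5.symm h2)))

theorem fix_inv (hW : Pl W q a Nf L) (h0 : e ≠ 1) (he : e ∈ W) (h1 : e • c = c) :
    W ≤ stabilizer G c := by
  by_cases h : a = c
  · exact h ▸ P.vl hW.1
  · exact P.adj_of_fix hW h0 he h (P.lfix h (P.vl hW.1 he) h1)

theorem cnt {m : ℕ} (hm : ∀ b, a ≠ b → {x | a ≠ x ∧ L a x = L a b}.ncard = m) {S : Set (Subgroup G)}
    (hS : ∀ U ∈ S, ∃ b, a ≠ b ∧ L a b = U) : {x | a ≠ x ∧ L a x ∈ S}.ncard = S.ncard * m := by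
  classical
  have := Fintype.ofFinite Ω
  have := Fintype.ofFinite (Subgroup G)
  rw [Set.ncard_eq_toFinset_card', Set.ncard_eq_toFinset_card',
    Finset.card_eq_sum_card_fiberwise (f := L a) (t := S.toFinset) fun x hx => by
      simpa using (Set.mem_toFinset.1 hx).2, Finset.sum_const_nat fun U hU => ?_]
  rw [Set.mem_toFinset] at hU
  obtain ⟨b, h, rfl⟩ := hS U hU
  rw [← hm b h, Set.ncard_eq_toFinset_card']
  exact congrArg _ (Finset.ext fun x => by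
    simpa using fun k _ => k ▸ hU)

end PC

end CfsgLib.L3N
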