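import Mathlib
import Cfsg.Agent.Lib.L3N.PB

/-!
The Borel case: first reductions.
-/

set_option autoImplicit false
set_option linter.unusedSectionVars false

namespace CfsgLib.L3N

open MulAction

variable {G Ω : Type*} [Group G] [MulAction G Ω] {N E W U D V E' W' : Subgroup G} {q : ℕ}
  {e e' g n s t u w x y z : G} {a b c d : Ω} {Nf : Ω → Subgroup G}

theorem IsB.l' (h : IsB q Nf a b E W) : E ≤ stabilizer G b := (h.iff E h.l).2 (.inl rfl)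

theorem IsB.r' (h : IsB q Nf a b E W) : W ≤ stabilizer G b := h.symm.l'

theorem IsB.uniq (h : IsB q Nf a b E W) (h' : IsB q Nf a b E' W') :
    (E' = E ∧ W' = W) ∨ (E' = W ∧ W' = E) :=
  ((h.iff _ h'.l).1 h'.l').imp
    (fun k => ⟨k, ((h.iff _ h'.r).1 h'.r').resolve_left fun k' => h'.adj.1 (k.trans k'.symm)⟩)
    fun k => ⟨k, ((h.iff _ h'.r).1 h'.r').resolve_right fun k' => h'.adj.1 (k.trans k'.symm)⟩

theorem IsB.of_le (h : IsB q Nf a b D V) (hE : Vx (Nf a) E q) (hW : Vx (Nf a) W q) (h0 : E ≠ W)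
    (h1 : E ≤ stabilizer G b) (h2 : W ≤ stabilizer G b) : IsB q Nf a b E W := by
  obtain rfl | rfl := (h.iff _ hE).1 h1 <;> obtain rfl | rfl := (h.iff _ hW).1 h2
  exacts [absurd rfl h0, h, h.symm, absurd rfl h0]

theorem cj_sup : s • (E ⊔ W) = s • E ⊔ s • W := Subgroup.map_sup ..

/-- The two flags of a pair of points. -/
structure BB (q : ℕ) (Nf : Ω → Subgroup G) (a b : Ω) (E W E' W' : Subgroup G) : Prop where
  ne : a ≠ b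
  l : IsB q Nf a b E W
  r : IsB q Nf b a E' W'

theorem BB.symm (h : BB q Nf a b E W E' W') : BB q Nf b a E' W' E W := ⟨h.ne.symm, h.r, h.l⟩

theorem BB.sl (h : BB q Nf a b E W E' W') : BB q Nf a b W E E' W' := ⟨h.ne, h.l.symm, h.r⟩

theorem BB.sr (h : BB q Nf a b E W E' W') : BB q Nf a b E W W' E' := ⟨h.ne, h.l, h.r.symm⟩

variable (q Nf) in
/-- The Borel case. -/
structure BC : Prop extends Gl q Nf where
  isB : ∀ {a b}, a ≠ b → ∃ E W, IsB q Nf a b E W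

variable [Finite G] [Finite Ω]

namespace Tri

variable (T : Tri q N) (hE : Vx N E q) (hW : Vx N W q) (h : Adj E W)
include T hE hW h

theorem cmm (he : e ∈ E) (hw : w ∈ W) : w * e * w⁻¹ * e ∈ E ⊓ W :=
  ⟨mul_mem (mem_of_cj (T.norm hE hW h hw) he) he, by
    simpa [mul_assoc, hE.inv he] using mul_mem hw (mem_of_cj (T.norm hW hE h.symm he) (inv_mem hw))⟩

theorem sqT (ht : t ∈ E ⊔ W) : t * t ∈ E ⊓ W := by
  obtain ⟨e, he, w, hw, rfl⟩ := T.mem_T hE hW h ht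
  simpa only [hE.inv he, mul_assoc, inf_comm] using T.cmm hW hE h.symm hw he

theorem commT (ht : t ∈ E ⊔ W) (hz : z ∈ E ⊓ W) : Commute t z := by
  obtain ⟨e, he, w, hw, rfl⟩ := T.mem_T hE hW h ht
  exact (hE.comm he hz.1).mul_left (hW.comm hw hz.2)

theorem centZ (h1 : ∀ e ∈ E, s * e * s⁻¹ * e ∈ E ⊓ W) (h2 : ∀ e ∈ W, s * e * s⁻¹ * e ∈ E ⊓ W)
    (hz : z ∈ E ⊓ W) : Commute s z := by
  obtain ⟨e, he, h3⟩ := T.exn hE hW h.1
  obtain ⟨w, hw, h4⟩ := T.surj hE hW h he h3 hz.1 hz.2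
  obtain ⟨x, hx, h5⟩ : ∃ x ∈ E ⊓ W, s * e * s⁻¹ = x * e := ⟨_, h1 e he, by
    rw [mul_assoc _ e e, hE.sq e he, mul_one]⟩
  obtain ⟨y, hy, h6⟩ : ∃ x ∈ E ⊓ W, s * w * s⁻¹ = w * x := ⟨_, h2 w hw, by
    rw [(hW.comm hw (h2 w hw).2).eq, mul_assoc _ w w, hW.sq w hw, mul_one]⟩
  refine of_cj (mul_left_cancel (a := x * e) ?_)
  rw [mul_assoc x e z, ← h4, ← h5, show s * e * s⁻¹ * (s * z * s⁻¹) = s * (e * z) * s⁻¹ by group, ← h4,
    show s * (w * e * w⁻¹) * s⁻¹ = s * w * s⁻¹ * (s * e * s⁻¹) * (s * w * s⁻¹)⁻¹ by group, h5, h6,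
    mul_assoc w, (hE.comm hy.1 (mul_mem hx.1 he)).eq, ← mul_assoc x, ← mul_assoc x,
    ← (hW.comm hw hx.2).eq]
  group

theorem G3 (hs : s • N = N) (h1 : s • E = E) (h2 : ∀ z ∈ E, z ∈ W → Commute s z)
    (h3 : ∀ e ∈ E, s * e * s⁻¹ * e ∈ W) : ∃ t ∈ E ⊔ W, ∃ c ∈ CN N, s = t * c :=
  let ⟨_, hw, _, he, c, hc, h4⟩ := T.G2 hs hE hW h h1 h2 h3
  ⟨_, mul_mem (Subgroup.mem_sup_right hw) (Subgroup.mem_sup_left he), c, hc, h4⟩

theorem idx2 (h2 : q = 2) (he : e ∈ E) (he' : e' ∈ E) (h3 : e ∉ W) (h4 : e' ∉ W) : e * e' ∈ W := by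
  have h5 := (W.subgroupOf E).index_mul_card
  rw [← Subgroup.inf_subgroupOf_right, Nat.card_congr (Subgroup.subgroupOfEquivOfLe inf_le_right).toEquiv,
    Subgroup.inf_subgroupOf_right, T.card_inf hW hE h.symm, hE.card, h2] at h5
  exact (Subgroup.mul_mem_iff_of_index_two (H := W.subgroupOf E) (by omega) (a := ⟨e, he⟩)
    (b := ⟨e', he'⟩)).2 (iff_of_false h3 h4)

theorem eq_two (h1 : ∀ e ∈ E, ∀ e' ∈ E, e ∉ W → e' ∉ W → e * e' ∈ W) : q = 2 := by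
  obtain ⟨e, he, h2⟩ := T.exn hE hW h.1
  have h5 := (W.subgroupOf E).index_mul_card
  rw [Subgroup.index_eq_two_iff.2 ⟨⟨e, he⟩, fun x => by
    by_cases k : x.1 ∈ W
    · exact .inr ⟨k, fun k' => h2 ((mul_mem_cancel_left k).1 k')⟩
    · exact .inl ⟨h1 _ x.2 e he k h2, k⟩⟩, ← Subgroup.inf_subgroupOf_right,
    Nat.card_congr (Subgroup.subgroupOfEquivOfLe inf_le_right).toEquiv, T.card_inf hW hE h.symm, hE.card,
    sq, mul_left_inj' (by have := T.q2; omega)] at h5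
  exact h5.symm

theorem adj2 (h2 : q = 2) (hs : s • N = N) (h3 : s • E = E) (h4 : s • W = W) :
    ∃ t ∈ E ⊔ W, ∃ c ∈ CN N, s = t * c := by
  refine T.G3 hE hW h hs h3 (fun z h5 h6 => ?_) fun e he => ?_
  · by_cases h0 : z = 1
    · exact h0 ▸ Commute.one_right s
    obtain ⟨y, -, h7⟩ := (Nat.card_eq_two_iff' (1 : (E ⊓ W :))).1 ((T.card_inf hE hW h).trans h2)
    exact of_cj (congrArg Subtype.val ((h7 ⟨_, mem_of_cj h3 h5, mem_of_cj h4 h6⟩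
      fun k => h0 (conj_eq_one_iff.1 (congrArg Subtype.val k))).trans
      (h7 ⟨z, h5, h6⟩ fun k => h0 (congrArg Subtype.val k)).symm))
  by_cases k : e ∈ W
  · exact mul_mem (mem_of_cj h4 k) k
  · exact T.idx2 hE hW h h2 (mem_of_cj h3 he) he (fun k' => k (cj_mem.1 (h4.symm ▸ k'))) k

end Tri

namespace BC

variable (B : BC q Nf)
include B

theorem bb (h : IsB q Nf a b E W) (h0 : a ≠ b) : ∃ E' W', BB q Nf a b E W E' W' :=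
  let ⟨_, _, k⟩ := B.isB h0.symm; ⟨_, _, h0, h, k⟩

theorem mkB (h : a ≠ b) (hE : Vx (Nf a) E q) (hW : Vx (Nf a) W q) (h0 : E ≠ W)
    (h1 : E ≤ stabilizer G b) (h2 : W ≤ stabilizer G b) : IsB q Nf a b E W :=
  let ⟨_, _, k⟩ := B.isB h; k.of_le hE hW h0 h1 h2

theorem vl (hU : Vx (Nf a) U q) : U ≤ stabilizer G a := fun _ hu => B.le (hU.le hu)

theorem swap (h : IsB q Nf a b E W) (h1 : g • a = a) (h2 : g • b = b) :
    (g • E = E ∧ g • W = W) ∨ (g • E = W ∧ g • W = E) := h.uniq (by simpa only [h1, h2] using B.isB_cj h g)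

theorem fixN (h : IsB q Nf a b E W) (h1 : g ∈ Nf a) (h2 : g • b = b) : g • E = E ∧ g • W = W :=
  (B.swap h (B.le h1) h2).resolve_right fun k => (B.tri a).nsame h.l h.adj ⟨g, h1, k.1⟩

theorem invB (h : IsB q Nf a b E W) (h1 : z ∈ Nf a) (h2 : z • b = b) (h3 : z * z = 1) : z ∈ E ∨ z ∈ W :=
  (B.tri a).flag_inv h.l h.r h.adj h1 h3 (B.fixN h h1 h2).1 (B.fixN h h1 h2).2

theorem Tfix (h : BB q Nf a b E W E' W') (hs : s ∈ E' ⊔ W') : s • a = a ∧ s • b = b :=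
  ⟨sup_le h.r.l' h.r.r' hs, sup_le (B.vl h.r.l) (B.vl h.r.r) hs⟩

theorem swT (h : BB q Nf a b E W E' W') (hs : s ∈ E' ⊔ W') :
    (s • E = E ∧ s • W = W) ∨ (s • E = W ∧ s • W = E) := B.swap h.l (B.Tfix h hs).1 (B.Tfix h hs).2

theorem nT (h : BB q Nf a b E W E' W') (hs : s ∈ E' ⊔ W') :
    s • (E ⊔ W) = E ⊔ W ∧ s • (E ⊓ W) = E ⊓ W := by
  rw [cj_sup, cj_inf]
  obtain ⟨h1, h2⟩ | ⟨h1, h2⟩ := B.swT h hs <;> simp [h1, h2, sup_comm, inf_comm]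

theorem trans (h : BB q Nf a b E W E' W') (h' : c ≠ d) :
    ∃ g : G, BB q Nf c d (g • E) (g • W) (g • E') (g • W') := by
  obtain ⟨g, rfl, rfl⟩ := B.tr2 h.ne h'
  exact ⟨g, h', B.isB_cj h.l g, B.isB_cj h.r g⟩

theorem NS (h : BB q Nf a b E W E' W') {Y : Subgroup G} (h1 : ∀ e ∈ E ⊔ W, e * y * e⁻¹ * y⁻¹ ∈ Y)
    (h2 : y ∈ E ⊔ W) (h3 : y ∉ E ⊓ W) : E ⊓ W ≤ Y :=
  (B.tri a).NS h.l.l h.l.r h.l.adj (fun e he => h1 e (Subgroup.mem_sup_left he))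
    (fun e he => h1 e (Subgroup.mem_sup_right he)) h2 h3

theorem Zeq (h : BB q Nf a b E W E' W') (h1 : E ⊓ W ≤ E' ⊓ W') : E ⊓ W = E' ⊓ W' :=
  Subgroup.eq_of_le_of_card_ge h1 (by
    rw [(B.tri a).card_inf h.l.l h.l.r h.l.adj, (B.tri b).card_inf h.r.l h.r.r h.r.adj])

theorem TT (h : BB q Nf a b E W E' W') (h0 : E ⊓ W ≠ E' ⊓ W') (h1 : y ∈ E ⊔ W) (h2 : y ∈ E' ⊔ W') :
    y ∈ E ⊓ W := by
  by_contra h3
  obtain ⟨z, h4, h5⟩ := SetLike.not_le_iff_exists.1 (mt (B.Zeq h) h0)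
  exact h0 (B.Zeq h.symm (B.NS h.symm (fun e he => mul_mem (mem_of_cj (B.nT h he).2 h4) (inv_mem h4))
    (B.NS h (fun e he => mul_mem (mem_of_cj (B.nT h.symm he).1 h2) (inv_mem h2)) h1 h3 h4) h5)).symm

theorem ZC (h : BB q Nf a b E W E' W') (h0 : E ⊓ W ≠ E' ⊓ W') : E' ⊓ W' ≤ CN (Nf a) := by
  have T := B.tri a
  have k : ∀ s ∈ E' ⊔ W', ∃ t ∈ E ⊓ W, ∃ c ∈ CN (Nf a), s = t * c := fun s hs => by
    have k1 : ∀ t ∈ E ⊔ W, s * t * s⁻¹ * t⁻¹ ∈ E ⊔ W ∧ s * t * s⁻¹ * t⁻¹ ∈ E' ⊔ W' := fun t ht =>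
      ⟨mul_mem (mem_of_cj (B.nT h hs).1 ht) (inv_mem ht), by
        simpa only [mul_assoc] using mul_mem hs (mem_of_cj (B.nT h.symm ht).1 (inv_mem hs))⟩
    have k2 : ∀ e ∈ E, s * e * s⁻¹ * e ∈ E ⊓ W := fun e he => by
      simpa only [h.l.l.inv he] using B.TT h h0 (k1 e (Subgroup.mem_sup_left he)).1 (k1 e (Subgroup.mem_sup_left he)).2
    have k3 : ∀ e ∈ W, s * e * s⁻¹ * e ∈ E ⊓ W := fun e he => by
      simpa only [h.l.r.inv he] using B.TT h h0 (k1 e (Subgroup.mem_sup_right he)).1 (k1 e (Subgroup.mem_sup_right he)).2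
    obtain ⟨t, ht, c, hc, rfl⟩ := T.G3 h.l.l h.l.r h.l.adj (B.nj (B.Tfix h hs).1)
      (cj_eq fun e he => (mul_mem_cancel_right he).1 (k2 e he).1) (fun z h1 h2 => T.centZ h.l.l h.l.r h.l.adj
        k2 k3 ⟨h1, h2⟩) fun e he => (k2 e he).2
    refine ⟨t, by_contra fun k => h0 (B.Zeq h (B.NS h (fun e he => ?_) ht k)), c, hc, rfl⟩
    have := inv_mem (B.TT h.symm h0.symm (k1 e he).2 (k1 e he).1)
    rw [mul_assoc t, mul_inv_rev t, ← (CN.comm hc (sup_le h.l.l.le h.l.r.le he)).eq] at this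
    convert this using 1
    group
  intro z hz
  obtain ⟨e, he, h1⟩ := (B.tri b).exn h.r.l h.r.r h.r.adj.1
  obtain ⟨w, hw, h2⟩ := (B.tri b).surj h.r.l h.r.r h.r.adj he h1 hz.1 hz.2
  obtain ⟨x, hx, c, hc, rfl⟩ := k e (Subgroup.mem_sup_left he)
  obtain ⟨y, hy, d, hd, rfl⟩ := k w (Subgroup.mem_sup_right hw)
  have h3 := mul_mem (inv_mem hc) (mul_mem (mul_mem hd hc) (inv_mem hd))
  rwa [← eq_inv_mul_iff_mul_eq.2 (mul_left_cancel (a := x) ((mul_assoc ..).symm.trans (h2.symm.trans ?_)))] at h3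
  rw [show y * d * (x * c) * (y * d)⁻¹ = y * (d * x * d⁻¹ * (d * c * d⁻¹)) * y⁻¹ by group,
    comm_cj (CN.comm hd (h.l.l.le hx.1)).symm, comm_cj ((h.l.l.comm hy.1 hx.1).mul_right
      (CN.comm (mul_mem (mul_mem hd hc) (inv_mem hd)) (h.l.l.le hy.1)))]

theorem Zsym (h : BB q Nf a b E W E' W') : E ⊓ W = E' ⊓ W' := by
  by_contra h0
  obtain ⟨n, hn, h1⟩ := B.mv' h.ne
  obtain ⟨z, h2, h3, h4⟩ := h.r.adj.2
  have h5 := B.mem (h.r.l.le h3) n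
  rw [comm_cj (CN.comm (B.ZC h h0 ⟨h3, h4⟩) hn)] at h5
  obtain ⟨g, k⟩ := B.trans h h1
  have k0 : g • E ⊓ g • W ≠ g • E' ⊓ g • W' := fun e => h0 (smul_left_cancel g (by rwa [cj_inf, cj_inf]))
  have s : ∀ {E W : Subgroup G}, z ∈ E ∨ z ∈ W → z ∈ E ⊔ W := fun h =>
    h.elim Subgroup.mem_sup_left Subgroup.mem_sup_right
  exact h2 ((B.tri _).nc h5 (B.ZC k k0 (B.TT k.symm k0.symm (s (B.invB k.r (h.r.l.le h3) (B.le h5)
    (h.r.l.sq z h3))) (s (B.invB k.l h5 (B.vl h.r.l h3) (h.r.l.sq z h3))))))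

theorem X1 (h : a ≠ b) (h1 : s ∈ CN (Nf a)) (h2 : s ∈ CN (Nf b)) : s = 1 := by
  obtain ⟨E, W, k⟩ := B.isB h
  obtain ⟨E', W', k'⟩ := B.bb k h
  obtain ⟨z, h3, h4, h5⟩ := k.adj.2
  exact B.geo h h3 (k.l.le h4) (k'.r.l.le ((B.Zsym k').le ⟨h4, h5⟩).1) h h1 h2

theorem NC (h1 : u ∈ Nf b) (h2 : u * u = 1) (h3 : u ∈ CN (Nf d)) : u = 1 := by
  by_contra h0
  have h4 : b ≠ d := fun e => h0 ((B.tri b).nc h1 (e ▸ h3))
  obtain ⟨E, W, hE, hW, h5, h6, h7⟩ := (B.tri b).two u h1 h2 h0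
  have k : ∀ {E}, Vx (Nf b) E q → u ∈ E → E ≤ stabilizer G d := fun hE h6 g hg => by_contra fun k =>
    h0 (B.X1 k (comm_cj (hE.comm hg h6) ▸ B.cn h3 g) h3)
  obtain ⟨E', W', k'⟩ := B.bb (B.mkB h4 hE hW h5 (k hE h6) (k hW h7)) h4
  exact h0 ((B.tri d).nc (k'.r.l.le ((B.Zsym k').le ⟨h6, h7⟩).1) h3)

theorem TC (h : BB q Nf a b E W E' W') (h1 : y ∈ E' ⊔ W') (h2 : y ∈ CN (Nf a)) : y = 1 := by
  have k : ∀ z ∈ E' ⊓ W', z ∈ CN (Nf a) → z = 1 := fun z hz =>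
    (B.tri a).nc (h.l.l.le ((B.Zsym h).ge hz).1)
  refine k y (by_contra fun h3 => ?_) h2
  obtain ⟨z, h4, h5⟩ := h.r.adj.2
  exact h4 (k z h5 (B.NS h.symm (fun e he => mul_mem ((B.Tfix h he).1 ▸ B.cn h2 e) (inv_mem h2)) h1 h3 h5))

theorem triv (h : BB q Nf a b E W E' W') (hs : s ∈ E' ⊔ W') (h1 : s • E = E) (he : e ∈ E) :
    s * e * s⁻¹ * e ∈ W :=
  (B.tri a).triv h.l.l h.l.r h.l.adj h1 (((B.swT h hs).resolve_right fun k => h.l.adj.1 (h1.symm.trans k.1)).2)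
    (fun _ h2 h3 => (B.tri b).commT h.r.l h.r.r h.r.adj hs ((B.Zsym h).le ⟨h2, h3⟩))
    (fun _ => h.l.r.comm ((B.Zsym h).ge ((B.tri b).sqT h.r.l h.r.r h.r.adj hs)).2) he

theorem adj (h : BB q Nf a b E W E' W') (hs : s ∈ E' ⊔ W') (h1 : s • E = E) :
    ∃ t ∈ E ⊔ W, ∃ c ∈ CN (Nf a), s = t * c :=
  (B.tri a).G3 h.l.l h.l.r h.l.adj (B.nj (B.Tfix h hs).1) h1
    (fun _ h2 h3 => (B.tri b).commT h.r.l h.r.r h.r.adj hs ((B.Zsym h).le ⟨h2, h3⟩)) fun _ => B.triv h hs h1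

end BC

end CfsgLib.L3N
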