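import Mathlib
import Cfsg.Agent.Lib.L3N.B1
import Cfsg.Agent.Lib.Perm.MultiTransBurnside

/-!
The Borel case does not occur.
-/

set_option autoImplicit false
set_option linter.unusedSectionVars false

namespace CfsgLib.L3N

open MulAction

variable {G Ω : Type*} [Group G] [MulAction G Ω] {N E W U D V E' W' : Subgroup G} {q : ℕ}
  {e e' g n s t u w x y z : G} {a b c d : Ω} {Nf : Ω → Subgroup G}

variable (q Nf) in
/-- A flag at a point fixes at most one further point. -/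
def Lam : Prop := ∀ {a b c : Ω} {E W}, a ≠ b → a ≠ c → IsB q Nf a b E W → IsB q Nf a c E W → b = c

variable [Finite G] [Finite Ω]

theorem no22 [FaithfulSMul G Ω] (h2 : IsMultiplyPretransitive G Ω 2) (h : Nat.card Ω = 22)
    (hG : Nat.card G = 3696 ∨ Nat.card G = 7392) (hs : ∀ x : Ω, ¬ 11 ∣ Nat.card (stabilizer G x)) :
    False := by
  have : Fact (Nat.Prime 11) := ⟨by norm_num⟩
  obtain ⟨P⟩ : Nonempty (Sylow 11 G) := inferInstance
  have h1 : Nat.card P = 11 := by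
    obtain ⟨n, h1⟩ := IsPGroup.iff_card.1 P.isPGroup'
    have h3 := P.not_dvd_index
    have h4 := P.1.index_mul_card
    rw [h1] at h4 ⊢
    rcases n with _ | _ | n
    · omega
    · rfl
    · rw [pow_succ, pow_succ, ← mul_assoc, ← mul_assoc] at h4; omega
  have cy := isCyclic_of_prime_card h1
  have o : ∀ x : Ω, (orbit P.1 x).ncard = 11 := fun x => by
    have h3 := card_orbit (H := P.1) x
    have h4 := Subgroup.card_dvd_of_le (inf_le_left : P.1 ⊓ stabilizer G x ≤ _)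
    rw [h1] at h3 h4
    obtain h5 | h5 := (Nat.dvd_prime this.out).1 h4
    · rwa [h5, mul_one] at h3
    · exact absurd (h5 ▸ Subgroup.card_dvd_of_le inf_le_right) (hs x)
  obtain ⟨a⟩ : Nonempty Ω := (Nat.card_pos_iff.1 (by omega)).1
  have h3 : Subgroup.centralizer (P.1 : Set G) ⊓ stabilizer G a = ⊥ :=
    (Subgroup.eq_bot_iff_forall _).2 fun g hg => by_contra fun h0 => by
      have k : ∀ {k : G} {x : Ω}, k ∈ Subgroup.centralizer (P.1 : Set G) → k • x = x → ∀ y ∈ orbit P.1 x, k • y = y := by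
        rintro k x hk hx _ ⟨p, rfl⟩
        exact (mul_smul k p.1 x).symm.trans (by rw [← hk p p.2, mul_smul, hx]; rfl)
      obtain ⟨y, hy⟩ : ∃ y : Ω, ¬ g • y = y := not_forall.1 fun k => h0 (FaithfulSMul.eq_of_smul_eq_smul (α := Ω) fun y =>
        (k y).trans (one_smul G y).symm)
      have h4 : ∀ x, x ∈ orbit P.1 a ∨ x ∈ orbit P.1 y := fun x => (Set.eq_of_subset_of_ncard_le
        (Set.subset_univ (orbit P.1 a ∪ orbit P.1 y)) (by
          rw [Set.ncard_union_eq ((orbit.eq_or_disjoint a y).resolve_left fun e =>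
            hy (k hg.1 hg.2 y (e ▸ mem_orbit_self y))), o, o, Set.ncard_univ, h])).ge (Set.mem_univ x)
      obtain ⟨p, hp⟩ := (h4 (g • y)).resolve_left fun e => hy (smul_left_cancel g (k hg.1 hg.2 _ e))
      have h5 : ∀ n : ℕ, g ^ n • y = p.1 ^ n • y := fun n => by
        induction n with
        | zero => simp
        | succ n ih => rw [pow_succ', mul_smul, ih, ← mul_smul, ← hg.1 _ (pow_mem p.2 n), mul_smul, ← hp,
            pow_succ, mul_smul]; rfl
      have h6 : g ^ 11 = 1 := FaithfulSMul.eq_of_smul_eq_smul (α := Ω) fun x => ((h4 x).elim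
        (k (pow_mem hg.1 _) (pow_mem hg.2 11) x) (k (pow_mem hg.1 _) (by
          rw [h5, ← Subgroup.coe_pow, show p ^ 11 = 1 by simpa only [h1] using pow_card_eq_one' (x := p)]; exact one_smul ..) x)).trans (one_smul G x).symm
      exact hs a (orderOf_eq_prime h6 h0 ▸ Subgroup.orderOf_dvd_natCard _ hg.2)
  have h4 := card_orbit (H := Subgroup.centralizer (P.1 : Set G)) a
  have h5 := Set.ncard_le_ncard (Set.subset_univ (orbit (Subgroup.centralizer (P.1 : Set G)) a))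
  rw [h3, Subgroup.card_bot, mul_one] at h4
  rw [h4, Set.ncard_univ, h] at h5
  have h6 : P.1 ≤ Subgroup.centralizer (P.1 : Set G) := Subgroup.le_centralizer_iff_isMulCommutative.2 inferInstance
  obtain ⟨k, h7⟩ := Subgroup.card_dvd_of_le h6
  have h8 := P.1.normalizerMonoidHom.ker.index_mul_card
  have h9 := Subgroup.card_subgroup_dvd_card P.1.normalizerMonoidHom.range
  rw [cy.card_mulAut, h1, ← Subgroup.index_ker, Nat.totient_prime this.out] at h9
  rw [Subgroup.normalizerMonoidHom_ker, Nat.card_congr (Subgroup.subgroupOfEquivOfLe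
    (Subgroup.centralizer_le_normalizer _)).toEquiv] at h8
  rw [Subgroup.normalizerMonoidHom_ker] at h9
  have h10 := card_sylow_modEq_one 11 G
  have h11 := (Subgroup.normalizer (P.1 : Set G)).index_mul_card
  rw [P.card_eq_index_normalizer, Nat.ModEq] at h10
  have h12 := Nat.le_of_dvd (by norm_num) h9
  have h13 : Nat.card (Subgroup.normalizer (P.1 : Set G)) = 11 ∧ Nat.card G = 7392 := by
    rw [← h8, h7, h1] at h11 ⊢
    rw [h7, h1] at h5
    have : k ≤ 2 := by omega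
    change (Subgroup.normalizer (P.1 : Set G)).index % _ = _ at h10
    generalize (Subgroup.subgroupOf (G := G) _ _).index = i at h9 h11 h12 ⊢
    interval_cases i <;> interval_cases k <;> omega
  have h14 : Subgroup.normalizer (P.1 : Set G) ≤ Subgroup.centralizer (P.1 : Set G) :=
    (Subgroup.eq_of_le_of_card_ge Subgroup.le_normalizer (h13.1.trans h1.symm).le).ge.trans h6
  have h15 := (MonoidHom.ker_transferSylow_isComplement' P h14).card_mul
  rw [h1, h13.2] at h15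
  have h16 := card_orbit (H := (MonoidHom.transferSylow P h14).ker) a
  rw [Set.eq_univ_of_forall (s := orbit _ a) fun x => ?_, Set.ncard_univ, h] at h16
  · omega
  obtain ⟨n, h1, h2⟩ := Perm.normal_transitive_of_two_transitive h2 (MonoidHom.transferSylow P h14).ker
    (fun k => by simp [k] at h15) a x
  exact ⟨⟨n, h1⟩, h2⟩

namespace BC

variable (B : BC q Nf)
include B

theorem A1 (A : ∀ {a b E W E' W'}, BB q Nf a b E W E' W' → ∀ s ∈ E' ⊔ W', s • E = E)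
    (h : BB q Nf a b E W E' W') : E' = E ∨ E' = W := by
  have T := B.tri a
  have T' := B.tri b
  have n := sup_le h.l.l.le h.l.r.le
  have n' := sup_le h.r.l.le h.r.r.le
  have c1 : ∀ {H : Subgroup G}, H ≤ stabilizer G b → (∀ y ∈ H, y ∈ CN (Nf b) → y = 1) →
      Nat.card (CN (Nf b) ⊔ H :) = Nat.card (CN (Nf b)) * Nat.card H := fun {H} h1 h2 => by
    rw [← card_sup fun w hw => cj_eq fun x hx => h1 hw ▸ B.cn hx w,
      (Subgroup.eq_bot_iff_forall (CN (Nf b) ⊓ H)).2 fun y hy => h2 y hy.2 hy.1, Subgroup.card_bot, mul_one]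
  have f : E ⊔ W ≤ stabilizer G b := sup_le h.l.l' h.l.r'
  have c2 : CN (Nf b) ⊔ (E ⊔ W) = CN (Nf b) ⊔ (E' ⊔ W') := Subgroup.eq_of_le_of_card_ge
    (sup_le le_sup_left fun t ht => by
      obtain ⟨s, hs, c, hc, rfl⟩ := B.adj h.symm ht (A h.symm t ht)
      exact mul_mem (Subgroup.mem_sup_right hs) (Subgroup.mem_sup_left hc)) (by
    rw [c1 f fun y => B.TC h.symm, c1 (fun y hy => (B.Tfix h hy).2) fun y hy => T'.nc (n' hy),
      T.card_T h.l.l h.l.r h.l.adj, T'.card_T h.r.l h.r.r h.r.adj])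
  suffices E' ≤ E ∨ E' ≤ W from this.imp
    (Subgroup.eq_of_le_of_card_ge · (h.l.l.card.trans h.r.l.card.symm).le)
    (Subgroup.eq_of_le_of_card_ge · (h.l.r.card.trans h.r.l.card.symm).le)
  refine SubgroupClass.subset_union.1 fun s hs => ?_
  have hs' := Subgroup.mem_sup_left (T := W') hs
  obtain ⟨t, ht, c, hc, rfl⟩ := B.adj h hs' (A h s hs')
  have h1 := T.sq_of (n ht) hc ((sq _).trans (h.r.l.sq _ hs))
  suffices c = 1 by rw [this, mul_one]; exact T.invT h.l.l h.l.r h.l.adj ht ((sq _).symm.trans h1)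
  obtain ⟨s', hs'', c', hc', h2⟩ := B.adj h.symm ht (A h.symm t ht)
  have h3 : c' * c ∈ E' ⊔ W' := by rwa [h2, mul_assoc, mul_mem_cancel_left hs''] at hs'
  have h4 : c • b = b := by rw [← inv_mul_cancel_left c' c, mul_smul, (B.Tfix h h3).2, B.cfix (inv_mem hc')]
  have h5 : c' * c ∈ E' ⊓ W' := by_contra fun k => by
    obtain ⟨z, h5, h6⟩ := h.r.adj.2
    refine h5 (B.NS h.symm (Y := ⊥) (fun e he => T'.nc (n' (mul_mem (mul_mem (mul_mem he h3) (inv_mem he))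
      (inv_mem h3))) ?_) h3 k h6)
    obtain ⟨x, hx, y, hy, rfl⟩ := mem_sup (fun w hw => cj_eq fun x hx => f hw ▸ B.cn hx w)
      (c2.ge (Subgroup.mem_sup_right he))
    have := mul_mem (mul_mem (mul_mem hx (f hy ▸ B.cn hc' y)) (h4 ▸ B.cn (inv_mem hx) c)) (inv_mem hc')
    nth_rw 1 [← comm_cj (CN.comm hc (n hy))] at this
    convert this using 1
    group
  have h6 := h.l.l.le ((B.Zsym h).ge h5).1
  by_cases h7 : c' * c = 1
  · exact B.X1 h.ne hc (eq_inv_of_mul_eq_one_right h7 ▸ inv_mem hc')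
  by_contra h0
  have h8 : t * c ≠ 1 := fun k => h0 (T.nc (eq_inv_of_mul_eq_one_right k ▸ inv_mem (n ht)) hc)
  refine h8 ?_
  by_cases h9 : t = 1
  · exact B.NC (n' hs') (h.r.l.sq _ hs) (by rwa [h9, one_mul])
  obtain ⟨m, hm, h10⟩ := T.conj_inv h6 (n ht) (h.r.l.sq _ h5.1) ((sq _).symm.trans h1) h7 h9
  refine B.NC (n' hs') (h.r.l.sq _ hs) (d := m • b) ?_
  convert B.cn (inv_mem hc') m using 1
  rw [← h10, ← h.r.l.inv h5.1, mul_assoc, ← (CN.comm hc (inv_mem hm)).eq.symm, ← mul_assoc, mul_assoc m,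
    (CN.comm hc (inv_mem h6)).eq]
  group

theorem caseA (A : ∀ {a b E W E' W'}, BB q Nf a b E W E' W' → ∀ s ∈ E' ⊔ W', s • E = E) (a : Ω) :
    q = 2 ∧ Lam q Nf := by
  have A2 : ∀ {a b E W}, a ≠ b → IsB q Nf a b E W → IsB q Nf b a E W := fun {a b E W} h0 h => by
    obtain ⟨E', W', k⟩ := B.bb h h0
    have v : ∀ {U}, U = E' ∨ U = W' → Vx (Nf b) U q := by rintro _ (rfl | rfl); exacts [k.r.l, k.r.r]
    exact B.mkB h0.symm (v (B.A1 A k.symm)) (v (B.A1 A k.symm.sr)) h.adj.1 (B.vl h.l) (B.vl h.r)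
  have A3 : ∀ {a c E}, Vx (Nf a) E q → E ≤ stabilizer G c → Vx (Nf c) E q := fun {a c E} hE h => by
    by_cases h0 : a = c
    · exact h0 ▸ hE
    obtain ⟨D, V, k⟩ := B.isB h0
    obtain rfl | rfl := (k.iff E hE).1 h
    exacts [(A2 h0 k).l, (A2 h0 k).r]
  have F : ∀ {a c D V z}, Vx (Nf a) D q → Vx (Nf a) V q → D ≠ V → z ≠ 1 → z ∈ D → z ∈ V → z • c = c →
      D ≤ stabilizer G c ∨ V ≤ stabilizer G c := fun {a c D V z} hD hV h h0 h1 h2 h3 => by
    by_cases h4 : a = c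
    · exact .inl (h4 ▸ B.vl hD)
    obtain ⟨E, W, k⟩ := B.isB h4
    obtain h5 | h5 := B.invB k (hD.le h1) h3 (hD.sq z h1)
    · exact ((B.tri a).three hD hV k.l h h0 h1 h2 h5).imp (·.ge.trans k.l') (·.ge.trans k.l')
    · exact ((B.tri a).three hD hV k.r h h0 h1 h2 h5).imp (·.ge.trans k.r') (·.ge.trans k.r')
  have P : ∀ {a E W V}, Vx (Nf a) E q → Vx (Nf a) W q → Vx (Nf a) V q → Adj E W → Adj E V → V ≠ W →
      ∃ c, a ≠ c ∧ IsB q Nf a c E V ∧ ¬ W ≤ stabilizer G c := fun hE hW hV h h1 h2 => by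
    obtain ⟨c, h3, h4, h5⟩ := B.fix2 hE hV h1
    have k := B.mkB h3 hE hV h1.1 h4 h5
    exact ⟨c, h3, k, fun e => ((k.iff _ hW).1 e).elim h.1.symm h2.symm⟩
  have M : ∀ {a E W}, Vx (Nf a) E q → Vx (Nf a) W q → Adj E W → ∃ V c, Vx (Nf c) E q ∧ Vx (Nf c) V q ∧
      Adj E V ∧ ¬ V ≤ stabilizer G a ∧ ∀ x : Ω, E ≤ stabilizer G x → W ≤ stabilizer G x ∨ V ≤ stabilizer G x :=
    fun {a E W} hE hW h => by
    have T := B.tri a
    obtain ⟨U, hU, h1, h2⟩ := T.ex_nb hE hW h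
    obtain ⟨c, h3, h4, h5⟩ := P hE hW hU h h1 h2
    obtain ⟨w, hw, h6⟩ := SetLike.not_le_iff_exists.1 h5
    have h7 := T.norm hE hW h hw
    have h8 : w ∉ E := fun k => h6 (h4.l' k)
    obtain ⟨V, k⟩ : ∃ V, IsB q Nf c (w • c) E V := by
      obtain ⟨D, V, k⟩ := B.isB (Ne.symm h6)
      obtain rfl | rfl := (k.iff E (A3 hE h4.l')).1 (h7 ▸ cj_stab.2 h4.l')
      exacts [⟨_, k⟩, ⟨_, k.symm⟩]
    have h9 : w • V = V := by
      have := B.isB_cj k w
      rw [← mul_smul, hW.sq w hw, one_smul, h7] at this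
      exact (((A2 (Ne.symm h6) k).uniq this).resolve_right fun e => k.adj.1 e.1).2
    obtain ⟨z, h0, z1, z2, z3⟩ : ∃ z, z ≠ 1 ∧ z ∈ E ∧ z ∈ V ∧ z ∈ W := by
      obtain ⟨x, x0, x1, x2⟩ := k.adj.2
      by_cases h10 : x ∈ W
      · exact ⟨x, x0, x1, x2, h10⟩
      exact ⟨_, fun e => (T.cent hE hW h x1 hw (of_cj (by rw [eq_inv_of_mul_eq_one_left e, hE.inv x1])).symm).elim
        h10 h8, (T.cmm hE hW h x1 hw).1, mul_mem (mem_of_cj h9 x2) x2, (T.cmm hE hW h x1 hw).2⟩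
    have h10 : W ≠ V := fun e => h5 (e ▸ B.vl k.r)
    obtain ⟨D, hD, h11, h12⟩ := T.ex_nb hW hE h.symm
    obtain ⟨d, -, h13, h14⟩ := P hW hE hD h.symm h11 h12
    refine ⟨V, c, k.l, k.r, k.adj, fun e => h8 (T.stab hE hW (A3 k.r e) h k.adj h10.symm hw h9), fun x hx =>
      F (A3 hW h13.l') (A3 k.r ((F k.l k.r k.adj.1 h0 z1 z2 (h13.l' z3)).resolve_left h14)) h10 h0 z3 z2 (hx z1)⟩
  have lam : Lam q Nf := fun {a x y E U} hx hy h1 h2 => by_contra fun h3 => by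
    obtain ⟨W, hW, h4, h5⟩ := (B.tri a).ex_nb h1.l h1.r h1.adj
    obtain ⟨V, c, v1, v2, v3, v4, v5⟩ := M h1.l hW h4
    have k : ∀ {x}, IsB q Nf a x E U → V ≤ stabilizer G x := fun h => (v5 _ h.l').resolve_left fun e =>
      ((h.iff _ hW).1 e).elim h4.1.symm h5
    exact (((B.mkB h3 (A3 h1.l h1.l') (A3 h1.r h1.r') h1.adj.1 h2.l' h2.r').iff V (A3 v2 (k h1))).1 (k h2)).elim
      v3.1.symm fun e => v4 (e ▸ B.vl h1.r)
  refine ⟨by_contra fun h0 => ?_, lam⟩
  have T := B.tri a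
  obtain ⟨E, W, hE, hW, h⟩ := T.ex
  obtain ⟨V, c, v1, v2, v3, v4, v5⟩ := M hE hW h
  obtain ⟨U₁, a1, b1, c1⟩ := T.ex_nb hE hW h
  obtain ⟨U₂, a2, b2, c2, d2⟩ := T.third hE W U₁
  obtain ⟨U₃, ⟨a3, b3⟩, c3⟩ := Set.exists_mem_notMem_of_ncard_lt_ncard (s := {W, U₁, U₂})
    (t := {W | Vx (Nf a) W q ∧ Adj E W}) (by
      have := Set.ncard_insert_le W {U₁, U₂}
      have := Set.ncard_insert_le U₁ {U₂}
      have := T.q2
      rw [T.card_nb hE]; simp only [Set.ncard_singleton] at *; omega)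
  simp only [Set.mem_insert_iff, Set.mem_singleton_iff, not_or] at c3
  obtain ⟨x₁, -, e1, f1⟩ := P hE hW a1 h b1 c1
  obtain ⟨x₂, -, e2, f2⟩ := P hE hW a2 h b2 c2
  obtain ⟨x₃, -, e3, f3⟩ := P hE hW a3 h b3 c3.1
  have n : ∀ {x y U U'}, IsB q Nf a x E U → IsB q Nf a y E U' → U' ≠ U → x ≠ y := fun h h' k e =>
    ((h.iff _ h'.r).1 (e ▸ h'.r')).elim h'.adj.1.symm k
  have g := fun {x} (e : E ≤ stabilizer G x) f => (v5 x e).resolve_left f
  exact n e2 e3 c3.2.2 (lam (n e1 e2 d2) (n e1 e3 c3.2.1)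
    (B.mkB (n e1 e2 d2) (A3 hE e1.l') (A3 v2 (g e1.l' f1)) v3.1 e2.l' (g e2.l' f2))
    (B.mkB (n e1 e3 c3.2.1) (A3 hE e1.l') (A3 v2 (g e1.l' f1)) v3.1 e3.l' (g e3.l' f3)))

theorem sw1 (h : BB q Nf a b E W E' W') (hs : s ∈ E') (h1 : s • E ≠ E) (he : e ∈ E) (h2 : e ∉ W) :
    e • E' ≠ E' := fun k => by
  have hs' := Subgroup.mem_sup_left (T := W') hs
  have h3 := (B.swT h hs').resolve_left fun k => h1 k.1
  have h4 := (B.Zsym h).ge ⟨mul_mem (mem_of_cj k hs) hs, B.triv h.symm (Subgroup.mem_sup_left he) k hs⟩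
  have h5 : s * e * s⁻¹ ∈ E := (mul_mem_cancel_left he).1 (by
    simpa only [h.l.l.inv he, h.r.l.inv hs, mul_assoc] using (Subgroup.mem_inf.1 h4).1)
  exact h2 (cj_mem.1 (h3.2.symm ▸ h5))

theorem caseB (h : BB q Nf a b E W E' W') (hs : s ∈ E' ⊔ W') (h1 : s • E ≠ E) : q = 2 ∧ Lam q Nf := by
  have S : ∀ {c d D V D' V' e}, BB q Nf c d D V D' V' → e ∈ D → e ∉ V → e • D' ≠ D' :=
    fun {c d D V D' V' e} k he h2 => by
    obtain ⟨g, k'⟩ := B.trans h k.ne
    have h3 : ¬ D' ⊔ V' ≤ stabilizer G D := fun e => h1 (smul_left_cancel g (by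
      have h4 : g * s * g⁻¹ ∈ D' ⊔ V' := by
        have := cj_mem (s := g).2 hs
        rw [cj_sup] at this
        obtain ⟨h5, h6⟩ | ⟨h5, h6⟩ := k.r.uniq k'.r <;> simpa only [h5, h6, sup_comm] using this
      have h5 := (B.swT k h4).resolve_right fun k' => k.l.adj.1 ((e h4).symm.trans k'.1)
      rw [show g • s • E = (g * s * g⁻¹) • g • E by simp [mul_smul]]
      obtain ⟨h6, -⟩ | ⟨h6, -⟩ := k.l.uniq k'.l <;> rw [h6]
      exacts [h5.1, h5.2]))
    rw [sup_le_iff, not_and_or] at h3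
    obtain h3 | h3 := h3 <;> obtain ⟨s, h4, h5⟩ := SetLike.not_le_iff_exists.1 h3
    · exact B.sw1 k h4 h5 he h2
    · exact fun e => B.sw1 k.sr h4 h5 he h2 ((B.swT k.symm (Subgroup.mem_sup_left he)).resolve_right
        fun k' => k.r.adj.1 (e.symm.trans k'.1)).2
  have S' : ∀ {c d D V D' V' e}, BB q Nf c d D V D' V' → e ∈ D → e ∉ V → e • D' = V' ∧ e • V' = D' :=
    fun k he h2 => (B.swT k.symm (Subgroup.mem_sup_left he)).resolve_left fun k' => S k he h2 k'.1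
  have h2 : q = 2 := (B.tri a).eq_two h.l.l h.l.r h.l.adj fun e he e' he' h2 h3 => by_contra fun k =>
    S h (mul_mem he he') k (by rw [mul_smul, (S' h he' h3).1, (S' h he h2).2])
  refine ⟨h2, fun {a b c E W} hb hc k1 k2 => by_contra fun h3 => ?_⟩
  have T := B.tri a
  obtain ⟨e, he, h4⟩ := T.exn k1.l k1.r k1.adj.1
  have Y : ∀ {b E' W' s}, BB q Nf a b E W E' W' → s ∈ E' → s ∉ W' → s * e * s⁻¹ ∈ W ∧ s * e * s⁻¹ ∉ E ∧
      e * (s * e * s⁻¹) ∈ E' ⊔ W' := fun {b E' W' s} k hs h5 =>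
    ⟨(S' k.symm hs h5).1 ▸ cj_mem.2 he, fun k' => h4 (cj_mem.1 ((S' k.symm hs h5).2.symm ▸ k')), by
      have h6 := Subgroup.mem_sup_left (T := W') hs
      simpa only [mul_assoc, k1.l.inv he] using
        mul_mem (mem_of_cj (B.nT k.symm (Subgroup.mem_sup_left he)).1 h6) (inv_mem h6)⟩
  have Z : ∀ {b c E' W' D V}, b ≠ c → BB q Nf a b E W E' W' → BB q Nf a c E W D V → IsB q Nf b c E' W' :=
    fun {b c E' W' D V} h5 k k' => by
    obtain ⟨s, hs, h6⟩ := (B.tri b).exn k.r.l k.r.r k.r.adj.1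
    obtain ⟨y1, y2, y3⟩ := Y k hs h6
    have y4 := mul_mem (Subgroup.mem_sup_left he) (Subgroup.mem_sup_right y1)
    obtain ⟨A, C, k''⟩ := B.isB h5
    have y5 := B.fixN k'' (sup_le k.r.l.le k.r.r.le y3) (sup_le k'.l.l' k'.l.r' y4)
    have y6 := fun e => (T.invT k1.l k1.r k1.adj y4 e).elim (fun e => y2 ((mul_mem_cancel_left he).1 e))
      fun e => h4 ((mul_mem_cancel_right y1).1 e)
    obtain rfl | rfl := (B.tri b).fix4 k.r.l k.r.r k.r.adj y3 y6 k''.l y5.1 <;>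
      obtain rfl | rfl := (B.tri b).fix4 k.r.l k.r.r k.r.adj y3 y6 k''.r y5.2
    exacts [absurd rfl k''.adj.1, k'', k''.symm, absurd rfl k''.adj.1]
  obtain ⟨E', W', k⟩ := B.bb k1 hb
  obtain ⟨D, V, k'⟩ := B.bb k2 hc
  have k'' : BB q Nf b c E' W' D V := ⟨h3, Z h3 k k', Z (Ne.symm h3) k' k⟩
  obtain ⟨s, hs, h6⟩ := (B.tri b).exn k.r.l k.r.r k.r.adj.1
  obtain ⟨y1, y2, -⟩ := Y k hs h6
  obtain ⟨t, ht, x, hx, h7⟩ := (B.tri c).adj2 k'.r.l k'.r.r k'.r.adj h2 (s := e * s)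
    (B.nj (by rw [mul_smul, k''.l.l' hs, k2.l' he])) (by rw [mul_smul, (S' k'' hs h6).1, (S' k' he h4).2])
    (by rw [mul_smul, (S' k'' hs h6).2, (S' k' he h4).1])
  have y4 := mul_mem (Subgroup.mem_sup_left he) (Subgroup.mem_sup_right y1)
  have h8 : (e * s) ^ 4 = e * (s * e * s⁻¹) * (e * (s * e * s⁻¹)) := by
    simp only [k.r.l.inv hs, pow_succ, pow_zero, one_mul, mul_assoc]
  refine (T.invT k1.l k1.r k1.adj y4 ((B.tri c).nc (k'.r.l.le ((B.Zsym k').le
    (T.sqT k1.l k1.r k1.adj y4)).1) ?_)).elim (fun e => y2 ((mul_mem_cancel_left he).1 e))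
      fun e => h4 ((mul_mem_cancel_right y1).1 e)
  rw [← h8, h7, (CN.comm hx (sup_le k'.r.l.le k'.r.r.le ht)).mul_pow, show t ^ 4 = t * t * (t * t) by simp [pow_succ, mul_assoc],
    k'.r.l.sq _ ((B.tri c).sqT k'.r.l k'.r.r k'.r.adj ht).1, one_mul]
  exact pow_mem hx 4

theorem elim [FaithfulSMul G Ω] (h2 : IsMultiplyPretransitive G Ω 2) (a : Ω) : False := by
  obtain ⟨hq, lam⟩ : q = 2 ∧ Lam q Nf := by
    by_cases A : ∀ {a b E W E' W'}, BB q Nf a b E W E' W' → ∀ s ∈ E' ⊔ W', s • E = E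
    · exact B.caseA A a
    · simp only [not_forall] at A
      obtain ⟨_, _, _, _, _, _, h, s, hs, h1⟩ := A
      exact B.caseB h hs h1
  have key : ∀ a : Ω, Nat.card Ω = 22 ∧
      (Nat.card (stabilizer G a) = 168 ∨ Nat.card (stabilizer G a) = 336) := fun a => by
    have T := B.tri a
    obtain ⟨E, W, hE, hW, h⟩ := T.ex
    obtain ⟨b, h0, h3, h4⟩ := B.fix2 hE hW h
    have k := B.mkB h0 hE hW h.1 h3 h4
    have tr : ∀ c, a ≠ c → ∃ n ∈ Nf a, n • b = c := fun c hc => by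
      obtain ⟨D, V, k'⟩ := B.isB hc
      obtain ⟨n, hn, h5⟩ := T.flag_tr hE hW h k'.l k'.r k'.adj
      have := B.isB_cj k n
      rw [B.le hn] at this
      obtain ⟨h6, h7⟩ | ⟨h6, h7⟩ := h5 <;> rw [h6, h7] at this
      exacts [⟨n, hn, lam (B.ne hn h0) hc this k'⟩, ⟨n, hn, lam (B.ne hn h0) hc this k'.symm⟩]
    have C : ∀ c ∈ CN (Nf a), c = 1 := fun c hc => B.faith c fun x => by
      by_cases h5 : a = x
      · exact h5 ▸ B.cfix hc
      obtain ⟨D, V, k'⟩ := B.isB h5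
      have := B.isB_cj k' c
      rw [B.cfix hc, CN.fix hc k'.l.le, CN.fix hc k'.r.le] at this
      exact lam (fun e => h5 (smul_left_cancel c ((B.cfix hc).trans e))) h5 this k'
    have mT : ∀ {s}, s • a = a → s • E = E → s • W = W → s ∈ E ⊔ W := fun h5 h6 h7 => by
      obtain ⟨t, ht, c, hc, rfl⟩ := T.adj2 hE hW h hq (B.nj h5) h6 h7
      rwa [C c hc, mul_one]
    have o : ∀ {H : Subgroup G}, Nf a ≤ H → H ≤ stabilizer G a →
        (Nat.card Ω - 1) * Nat.card (H ⊓ stabilizer G b :) = Nat.card H := fun {H} h5 h6 => by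
      rw [← card_orbit (H := H) b, show orbit H b = {a}ᶜ from Set.ext fun x => ⟨fun ⟨n, e⟩ k => h0
        (smul_left_cancel n.1 ((h6 n.2).trans (k.symm.trans e.symm))),
        fun k => let ⟨n, h1, h2⟩ := tr x (Ne.symm k); ⟨⟨n, h5 h1⟩, h2⟩⟩, Set.ncard_compl, Set.ncard_singleton]
    have l : E ⊔ W ≤ Nf a ⊓ stabilizer G b := sup_le (le_inf hE.le h3) (le_inf hW.le h4)
    have h5 := o le_rfl fun _ => B.le
    have h6 := o (fun _ => B.le) le_rfl
    have h7 := T.card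
    have h8 := card_orbit (H := stabilizer G a ⊓ stabilizer G b) E
    rw [le_antisymm (fun n hn => mT (B.le hn.1) (B.fixN k hn.1 hn.2).1 (B.fixN k hn.1 hn.2).2) l,
      T.card_T hE hW h] at h5
    rw [show stabilizer G a ⊓ stabilizer G b ⊓ stabilizer G E = E ⊔ W from le_antisymm (fun n hn =>
      mT hn.1.1 hn.2 ((B.swap k hn.1.1 hn.1.2).resolve_right fun e => h.1 (hn.2.symm.trans e.1)).2)
      (le_inf (l.trans (inf_le_inf_right _ fun _ => B.le)) fun n hn => (B.fixN k (l hn).1 (l hn).2).1),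
      T.card_T hE hW h] at h8
    have h9 := (Set.ncard_le_ncard (s := orbit (stabilizer G a ⊓ stabilizer G b :) E) (t := {E, W})
      fun _ ⟨n, e⟩ => e ▸ (B.swap k n.2.1 n.2.2).imp And.left And.left).trans (Set.ncard_insert_le _ _)
    have h10 := Nat.card_pos (α := (stabilizer G a ⊓ stabilizer G b :))
    rw [Set.ncard_singleton] at h9
    subst hq
    norm_num at h7
    have h11 : Nat.card Ω = 22 := by omega
    rw [h11] at h6
    omega
  have h3 := card_orbit (H := (⊤ : Subgroup G)) a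
  obtain ⟨h4, h5⟩ := key a
  rw [Set.eq_univ_of_forall (s := orbit _ a) fun x => ?_, Set.ncard_univ, h4, Subgroup.card_top,
    top_inf_eq] at h3
  · exact no22 h2 h4 (by omega) fun x => by have := (key x).2; omega
  by_cases k : a = x
  · exact k ▸ mem_orbit_self a
  · obtain ⟨g, k, -⟩ := B.tr2 k (Ne.symm k)
    exact ⟨⟨g, trivial⟩, k⟩

end BC

end CfsgLib.L3N
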